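import Mathlib
import Cfsg.Agent.Base
import Cfsg.Agent.Lib.QZ.Defs
import Cfsg.Agent.Lib.QZ.F4
import Cfsg.Agent.Lib.QT.Cube

/-!
The components of a solvable overgroup of `T`.
-/

set_option autoImplicit false
set_option linter.unusedSectionVars false
set_option linter.unusedVariables false

namespace H16Q

open Subgroup H69 H70 Cfsg
open scoped commutatorElement Pointwise

variable {G : Type*} [Group G] [Finite G]

variable {T X X₁ X₂ H M R : Subgroup G} {C C₁ C₂ : Set (Subgroup G)}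

/-- the properties of the components inside the group `H` itself. -/
structure CmpI (V T : Subgroup G) (C : Set (Subgroup G)) : Prop where
  le : ∀ N ∈ C, N ≤ V
  four : ∀ N ∈ C, Four N
  two : Two C
  disj : Disj C
  perm : ∀ h, Pm C h
  Bn : ∀ N ∈ C, 𝐁(T) ≤ 𝐍(N)
  tv : ∀ U : Subgroup G, U ≤ V → ¬ 𝐉(T) ≤ 𝐂(U) →
    ∃ t ∈ 𝐉(T), t ∉ 𝐂(U) ∧ ∃ W ∈ C, ⁅V, zpowers t⁆ ≤ W ∧ t ∉ 𝐂(W)
  k3 : ∀ W ∈ C, ∃ x, ⁅V, zpowers x⁆ ≤ W ∧ Fpf W x

section inner

open H70.FF2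

variable {V : Subgroup G} [V.Normal] {s t : G}

theorem cmp_exists_y (hX : FF2 V X) (ht : Tv V t) : ∃ y ∈ Yt V X t, y ∉ 𝐂(V) := by
  refine exists_not_mem_of_not_le fun e => ?_
  have h1 := hX.idx t ht
  rw [relIndex_eq_one.2 e] at h1
  omega

theorem cmp_inv (hX : FF2 V X) (ht : Tv V t) {y : G} (hy : y ∈ Yt V X t) (hyc : y ∉ 𝐂(V)) :
    H90.QT.Inv3 (QuotientGroup.mk' 𝐂(V) t) (QuotientGroup.mk' 𝐂(V) y) := by
  set f := QuotientGroup.mk' 𝐂(V) with hf
  have hk : ∀ g, f g = 1 ↔ g ∈ 𝐂(V) := fun g => QuotientGroup.eq_one_iff g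
  have h3 : f y ^ 3 = 1 := by
    rw [← map_pow, hk, ← hX.idx t ht]
    exact pow_relIndex_mem _ hy
  have hy1 : f y ≠ 1 := fun e => hyc ((hk y).1 e)
  have hY : Yt V X t ≤ (zpowers (f y)).comap f := by
    refine (hX.le_or_le ht (N := (zpowers (f y)).comap f) fun c hc => ?_).resolve_left fun e =>
      hyc (e ⟨hy, mem_zpowers _⟩)
    rw [mem_comap, (hk c).2 hc]
    exact one_mem _
  refine ⟨?_, h3, ?_⟩
  · rw [← sq, ← map_pow, hk]
    exact ht.2.1
  · have ho : orderOf (f y) = 3 := by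
      have := Fact.mk Nat.prime_three
      exact orderOf_eq_prime h3 hy1
    have h4 : f t * f y * (f t)⁻¹ ∈ zpowers (f y) := by
      have := hY (conj_mem_of_mem_normalizer (t_norm (V := V) (X := X) t (mem_zpowers t)) hy)
      rwa [mem_comap, map_mul, map_mul, map_inv] at this
    classical
    rw [mem_zpowers_iff_mem_range_orderOf, ho, Finset.mem_image] at h4
    obtain ⟨k, hk3, e⟩ := h4
    rw [Finset.mem_range] at hk3
    interval_cases k
    · rw [pow_zero] at e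
      exact absurd (by simpa using e.symm) hy1
    · exfalso
      rw [pow_one] at e
      refine hX.act t ht ?_
      have h5 : zpowers (f y) ≤ 𝐂(zpowers (f t)) :=
        le_centralizer_comm.1 (zpowers_le_of_mem (mem_cent_of_conj_eq e.symm))
      rw [commutator_le]
      intro a ha b hb
      rw [← hk, map_commutatorElement, commutatorElement_eq_one_iff_mul_comm]
      exact (mem_centralizer_iff_commute.1 (h5 (hY ha)) _ (by
        rw [← MonoidHom.map_zpowers]; exact mem_map_of_mem f hb)).symm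
    · rw [← e, eq_inv_iff_mul_eq_one, ← pow_succ, h3]

theorem cmp_ne (hX : FF2 V X) (hs : Tv V s) (ht : Tv V t) (hne : Wt V X s ≠ Wt V X t) {a b : G}
    (ha : a ∈ Yt V X s ⊔ zpowers s) (hb : b ∈ Yt V X t ⊔ zpowers t) :
    Commute (QuotientGroup.mk' 𝐂(V) a) (QuotientGroup.mk' 𝐂(V) b) := by
  have h1 := (hX.dich s t hs ht).resolve_left fun e => hne (by simp only [Wt, hX.Yt_eq hs ht e])
  rw [← commutatorElement_eq_one_iff_commute, ← map_commutatorElement]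
  exact (QuotientGroup.eq_one_iff _).2 (h1.1 (commutator_mem_commutator ha hb))

theorem cmp_two (hX : FF2 V X) (hr : PRankLE 3 2 G) : Two {W | ∃ t, Tv V t ∧ W = Wt V X t} := by
  rintro _ ⟨t₀, h₀, rfl⟩ _ ⟨t₁, h₁, rfl⟩ _ ⟨t₂, h₂, rfl⟩
  by_contra hc
  push Not at hc
  obtain ⟨n01, n02, n12⟩ := hc
  let t : Fin 3 → G := ![t₀, t₁, t₂]
  have ht : ∀ i, Tv V (t i) := fun i => by fin_cases i <;> assumption
  have hne : ∀ i j, i ≠ j → Wt V X (t i) ≠ Wt V X (t j) := fun i j e => by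
    fin_cases i <;> fin_cases j <;>
      first | exact absurd rfl e | assumption | exact Ne.symm (by assumption)
  choose y hy hyc using fun i => cmp_exists_y hX (ht i)
  refine H90.QT.not_cube hr (QuotientGroup.mk'_surjective 𝐂(V)) (fun i => QuotientGroup.mk' 𝐂(V) (t i))
    (fun i => QuotientGroup.mk' 𝐂(V) (y i)) (fun i => cmp_inv hX (ht i) (hy i) (hyc i))
    (fun i e => hyc i ((QuotientGroup.eq_one_iff _).1 e)) (fun i j => ?_) (fun i j => ?_) fun i j e => ?_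
  · by_cases e : i = j
    · rw [e]
    · exact cmp_ne hX (ht i) (ht j) (hne i j e) (mem_sup_right (mem_zpowers _)) (mem_sup_right (mem_zpowers _))
  · by_cases e : i = j
    · rw [e]
    · exact cmp_ne hX (ht i) (ht j) (hne i j e) (mem_sup_left (hy i)) (mem_sup_left (hy j))
  · exact cmp_ne hX (ht i) (ht j) (hne i j e) (mem_sup_right (mem_zpowers _)) (mem_sup_left (hy j))

theorem cmp_inner (hs : Group.IsSolvable G) (ea : IsElementaryAbelian 2 V) (red : pCore 2 (G ⧸ 𝐂(V)) = ⊥)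
    (hT : IsPGroup 2 T) (hVT : V ≤ T) (hr : PRankLE 3 2 G) : ∃ C, CmpI V T C := by
  obtain ⟨X, hX⟩ := exists_ff2 ea red
  have hP : IsPGroup 2 V := H24.EA.isPGroup ea
  have hJ : ∀ N : Subgroup G, 𝐂(V) ≤ N → (∀ t ∈ 𝐉(T), Tv V t → t ∈ N) → 𝐉(T) ≤ N := fun N hN ht =>
    H24.thompsonSubgroupOf_le_iff.2 fun A hA => hX.gen A
      (H24.isBestOffenderOn_of_mem_maxEA hA hVT ea) N hN fun t htA htv =>
        ht t (H24.le_thompsonSubgroupOf hA htA) htv
  have hJt : 𝐉(T) ≤ tvCl V := hJ _ le_sup_right fun t _ ht => mem_sup_left (subset_closure ht)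
  refine ⟨{W | ∃ t, Tv V t ∧ W = Wt V X t}, ?_, ?_, cmp_two hX hr, ?_, ?_, ?_, fun U hU hJU => ?_, ?_⟩
  · rintro _ ⟨t, ht, rfl⟩
    exact Wt_le t
  · rintro _ ⟨t, ht, rfl⟩
    exact ⟨hX.card t ht, H24.EA.mono ea (Wt_le t)⟩
  · rintro _ ⟨s, hs, rfl⟩ _ ⟨t, ht, rfl⟩ hne
    exact ((hX.dich' hP hs ht).resolve_left fun e => hne (by simp only [Wt, hX.Yt_eq hs ht e])).2
  · rintro g _ ⟨t, ht, rfl⟩
    exact ⟨_, ht.conj g, hX.cj_Wt t g⟩
  · rintro _ ⟨t, ht, rfl⟩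
    obtain ⟨z, hz, hz1⟩ := exists_ne_one_of_ne_bot (inf_centralizer_ne_bot (hP.to_le (Wt_le t))
      (isPGroup_J hT) (norm_Wt (hJt.trans (hX.tvCl_norm ht))) (four_ne_bot (hX.card t ht)))
    have hB : 𝐁(T) ≤ 𝐂(zpowers z) := (B_le_cent T).trans (H69.centralizer_anti (zpowers_le_of_mem (le_oz_J
      (H24.EA.mono ea (inf_le_left.trans (Wt_le t))) (inf_le_left.trans ((Wt_le t).trans hVT))
        inf_le_right hz)))
    exact norm_Wt fun b hb => hX.mem_norm_of_fix hP ht hz.1 hz1 (conj_eq_of_mem_cent (hB hb))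
  · by_contra hc
    refine hJU (hJ _ (H69.centralizer_anti hU) fun t htJ ht => by_contra fun htU => hc ?_)
    exact ⟨t, htJ, htU, _, ⟨t, ht, rfl⟩, hX.comm_le_Wt hP ht, hX.not_mem_cW hP ht⟩
  · rintro _ ⟨t, ht, rfl⟩
    obtain ⟨y, hy, hyc⟩ := cmp_exists_y hX ht
    refine ⟨y, commutator_mono le_rfl (zpowers_le_of_mem hy), Y_norm_Wt t hy, fun n hn e => ?_⟩
    by_contra hn1
    exact (hX.le_or_le ht (N := 𝐂(zpowers n)) (H69.centralizer_anti (zpowers_le_of_mem (Wt_le t hn)))).elim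
      (fun e' => hyc (e' ⟨hy, mem_cent_of_conj_eq e⟩)) (hX.not_Y_le_cent ea ht hn hn1)

end inner

theorem cmp_kc {V : Subgroup G} (hV : PRed 2 V H) (hle : ∀ N ∈ C, N ≤ V) (h2 : Two C) (hp : ∀ h ∈ H, Pm C h)
    {S : Set (Subgroup G)} (hS : S ⊆ C) {h : G} (hh : h ∈ H) (hc : ⁅V, zpowers h⁆ ≤ sSup S)
    (hE : h ∈ 𝐂(sSup S)) : h ∈ 𝐂(V) := by
  rcases S.eq_empty_or_nonempty with rfl | ⟨N₀, hN₀⟩
  · rw [sSup_empty, le_bot_iff, commutator_comm] at hc
    exact le_centralizer_of_commutator_eq_bot hc (mem_zpowers h)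
  set H₀ : Subgroup G := H ⊓ ⨅ N ∈ C, 𝐍(N) with hH₀
  have mem0 : ∀ x, x ∈ H₀ ↔ x ∈ H ∧ ∀ N ∈ C, x ∈ 𝐍(N) := fun x => by
    simp only [hH₀, mem_inf, mem_iInf]
  have h0 : h ∈ H₀ := (mem0 h).2 ⟨hh, fun N hN => Pm.other h2 (hp h hh) (hS hN₀)
    (le_normalizer_of_le_centralizer le_rfl (mem_cent_sSup.1 hE N₀ hN₀)) hN⟩
  have hn0 : H ≤ 𝐍(H₀) := fun g hg => mem_normalizer_of_cj_le fun x hx => by
    rw [mem_cj, mem0] at hx
    refine (mem0 x).2 ⟨?_, fun N hN => ?_⟩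
    · simpa [mul_assoc] using mul_mem (mul_mem hg hx.1) (inv_mem hg)
    · have h1 := hx.2 _ (hp g⁻¹ (inv_mem hg) N hN)
      rw [← cj_normalizer, mem_cj] at h1
      simpa [mul_assoc] using h1
  have hnE : H₀ ≤ 𝐍(sSup S) := fun x hx =>
    Pm.norm_sSup (Pm.of_norm fun N hN => ((mem0 x).1 hx).2 N (hS hN))
  have hz : zpowers h ≤ 𝐂(sSup S) := zpowers_le_of_mem hE
  have hK := hV.red.sn hV.norm (X := ncl (zpowers h) H₀)
    ((sn_of_normal (ncl_le_self (zpowers_le_of_mem h0)) (le_normalizer_ncl _ _)).trans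
      (sn_of_normal inf_le_left hn0))
    (res_le_centralizer_of_commutator_le (hV.isPGroup.to_le (sSup_le fun N hN => hle N (hS hN)))
      (comm_ncl_le hc (le_normalizer_of_le_centralizer hz) hnE (inf_le_left.trans hV.norm))
      (ncl_le_centralizer hz hnE))
  exact hK (le_ncl _ _ (mem_zpowers h))

theorem cmp_mem_cent {A : Subgroup H} {x : H} : (x : G) ∈ 𝐂(A.map H.subtype) ↔ x ∈ 𝐂(A) := by
  constructor
  · intro h
    have h1 : (x : G) ∈ (𝐂(A)).map H.subtype := by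
      rw [map_subtype_centralizer]
      exact ⟨x.2, h⟩
    obtain ⟨y, hy, e⟩ := h1
    rwa [← show y = x from Subtype.ext e]
  · intro h
    have h1 : (x : G) ∈ (𝐂(A)).map H.subtype := ⟨x, h, rfl⟩
    rw [map_subtype_centralizer] at h1
    exact h1.2

theorem QS.cmp (h : QS T) (hT : T ≤ H) (hO : 𝐎(H) ≠ ⊥) : ∃ C, Cmp H T C := by
  have hV := pred_Y 2 H
  have hS : IsSylowIn 2 T H := h.syl.mono hT le_top
  set V := 𝐘(2, H) with hVd
  have hi := subtype_injective H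
  have e1 : (T.subgroupOf H).map H.subtype = T := by rw [subgroupOf_map_subtype, inf_eq_left.2 hT]
  have e2 : (V.subgroupOf H).map H.subtype = V := by rw [subgroupOf_map_subtype, inf_eq_left.2 hV.le]
  have h1 : PRed 2 (V.subgroupOf H) ⊤ := by
    rwa [← pred_map_subtype_iff, map_subtype_top, e2]
  have hn : (V.subgroupOf H).Normal := normal_iff_top_le_normalizer.2 h1.norm
  obtain ⟨C, hC⟩ := cmp_inner (T := T.subgroupOf H) (h.solv H hT hO) h1.ea
    ((pCore_quotient_eq_bot_iff _).2 (red_iff_modCore.1 h1.red)) (isPGroup_subgroupOf hS.isP H)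
    (comap_mono (hV.le_pCoreOf.trans hS.pCoreOf_le)) (h.rk H hO)
  have hcm : ∀ (x : H) (W : Subgroup H), ⁅V.subgroupOf H, zpowers x⁆ ≤ W →
      ⁅V, zpowers (x : G)⁆ ≤ W.map H.subtype := fun x W e => by
    have := map_mono (f := H.subtype) e
    rwa [map_commutator, e2, MonoidHom.map_zpowers] at this
  have hle : ∀ N ∈ Subgroup.map H.subtype '' C, N ≤ V := by
    rintro _ ⟨N, hN, rfl⟩
    exact le_subgroupOf_iff.1 (hC.le N hN)
  have h2 : Two (Subgroup.map H.subtype '' C) := by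
    rintro _ ⟨A, hA, rfl⟩ _ ⟨B, hB, rfl⟩ _ ⟨D, hD, rfl⟩
    simp only [H69.map_subtype_inj]
    exact hC.two A hA B hB D hD
  have hp : ∀ g ∈ H, Pm (Subgroup.map H.subtype '' C) g := by
    rintro g hg _ ⟨N, hN, rfl⟩
    exact ⟨_, hC.perm ⟨g, hg⟩ N hN, map_subtype_cj N ⟨g, hg⟩⟩
  refine ⟨Subgroup.map H.subtype '' C, hle, ?_, h2, ?_, hp, ?_, fun U hU hJU => ?_,
    fun S hS g hg => cmp_kc hV hle h2 hp hS hg, ?_⟩
  · rintro _ ⟨N, hN, rfl⟩
    exact ⟨by rw [card_map_subtype, (hC.four N hN).card], H24.EA.map (hC.four N hN).ea _⟩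
  · rintro _ ⟨A, hA, rfl⟩ _ ⟨B, hB, rfl⟩ hne
    rw [← Subgroup.map_inf _ _ _ hi, hC.disj A hA B hB fun e => hne (by rw [e]), Subgroup.map_bot]
  · rintro _ ⟨N, hN, rfl⟩
    have := map_normalizer_le H.subtype (hC.Bn N hN)
    rwa [map_B hi, e1] at this
  · have e3 : (U.subgroupOf H).map H.subtype = U := by
      rw [subgroupOf_map_subtype, inf_eq_left.2 (hU.trans hV.le)]
    have e4 : (𝐉(T.subgroupOf H)).map H.subtype = 𝐉(T) := by rw [H24.map_thompsonSubgroupOf hi, e1]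
    obtain ⟨t, ht, htU, W, hW, a, b⟩ := hC.tv (U.subgroupOf H) (comap_mono hU) fun e => hJU (by
      rw [← e4, ← e3]
      rintro _ ⟨x, hx, rfl⟩
      exact cmp_mem_cent.2 (e hx))
    refine ⟨t, e4.le ⟨t, ht, rfl⟩, fun e => htU (cmp_mem_cent.1 (by rwa [e3])), _, ⟨W, hW, rfl⟩,
      hcm t W a, fun e => b (cmp_mem_cent.1 e)⟩
  · rintro _ ⟨W, hW, rfl⟩
    obtain ⟨x, a, b⟩ := hC.k3 W hW
    refine ⟨x, x.2, hcm x W a, map_normalizer_le H.subtype (zpowers_le_of_mem b.norm) ⟨x, mem_zpowers x, rfl⟩, ?_⟩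
    rintro _ ⟨n, hn, rfl⟩ e
    exact congrArg Subtype.val (b.fix n hn (Subtype.ext e))

end H16Q
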