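import Mathlib
import Cfsg.Agent.Base
import Cfsg.Agent.Lib.QZ.CMP

/-!
Overgroups of the parabolic permute its components.
-/

set_option autoImplicit false
set_option linter.unusedSectionVars false
set_option linter.unusedVariables false

namespace H16Q

open Subgroup H69 H70 Cfsg
open scoped commutatorElement Pointwise

variable {G : Type*} [Group G] [Finite G]

variable {T X X₁ X₂ H M R : Subgroup G} {C C₁ C₂ : Set (Subgroup G)}

private theorem U_sub (h : QS T) (p : Par T X C) (hP : X ⊔ T ≤ H) (hO : 𝐎(H) ≠ ⊥)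
    (c : Cmp H T C₁) : C ⊆ C₁ := by
  have hT : T ≤ H := le_sup_right.trans hP
  have hX : X ≤ H := le_sup_left.trans hP
  have hE : sSup C ≤ 𝐘(2, H) := by
    obtain ⟨ζ, hζ, e⟩ := p.zeta
    exact e.trans (ncl_le (zpowers_le.2 (oz_sylow_le_Y (h.chr H hT hO) (h.syl.mono hT le_top) hζ))
      (hX.trans (le_normalizer_Y H)))
  obtain ⟨t, htJ, htc, W, hW, hc, -⟩ := c.tv _ hE p.Jc
  obtain ⟨N, hN, htN⟩ : ∃ N ∈ C, t ∉ 𝐂(N) := by
    by_contra! e
    exact htc (mem_cent_sSup.2 e)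
  obtain ⟨n, hn, hnt⟩ : ∃ n ∈ N, n * t ≠ t * n := by
    by_contra! e
    exact htN (mem_centralizer_iff.2 e)
  have f := p.four N hN
  have hy1 : ⁅n, t⁆ ≠ 1 := fun e => hnt (commutatorElement_eq_one_iff_mul_comm.1 e)
  have hyW : ⁅n, t⁆ ∈ W := hc (commutator_mem_commutator (hE (le_sSup hN hn)) (mem_zpowers t))
  have hyN : ⁅n, t⁆ ∈ N := by
    have := mul_mem hn (H69.conj_mem_of_mem_normalizer (p.Bn N hN (J_le_B T htJ)) (inv_mem hn))
    rwa [commutatorElement_def, mul_assoc, mul_assoc, ← mul_assoc t]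
  obtain ⟨x, hx, hxc, -⟩ := p.full N hN
  have fx := (p.even N hN x hx hxc).sq f
  have hNW : N ≤ W := f.le_of_two hyN (H69.conj_mem_of_mem_normalizer fx.norm hyN) hy1
    (fun e => hy1 (conj_eq_one_iff.1 e)) (fun e => hy1 (fx.fix _ hyN e.symm)) hyW
    (H69.conj_mem_of_mem_normalizer ((c.perm x (hX hx)).sq_norm c.two hW) hyW)
  have e : N = W := eq_of_le_of_card_ge hNW (by rw [f.card, (c.four W hW).card])
  intro A hA
  obtain ⟨s, hs, rfl⟩ := p.ttr N hN A hA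
  exact c.perm s (hT hs) N (e ▸ hW)

theorem Par.u1 (h : QS T) (p : Par T X C) (hP : X ⊔ T ≤ H) (hO : 𝐎(H) ≠ ⊥) : ∀ g ∈ H, Pm C g := by
  have hT : T ≤ H := le_sup_right.trans hP
  obtain ⟨C₁, c⟩ := h.cmp hT hO
  have sub := U_sub h p hP hO c
  intro g hg
  rcases p.two.cases p.ne with ⟨N, e⟩ | ⟨N, K, hne, e⟩
  · have hN : N ∈ C := by rw [e]; exact rfl
    have : H ≤ 𝐍(N) := Pm.norm_of_sylow c.two (h.syl.mono hT le_top) c.perm (sub hN) fun t ht => by
      have := p.tperm t ht N hN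
      rw [e] at this
      exact cj_eq_self_iff.1 this
    refine Pm.of_norm fun A hA => ?_
    rw [e] at hA
    exact hA ▸ this hg
  · have hN : N ∈ C := by rw [e]; exact Or.inl rfl
    have hK : K ∈ C := by rw [e]; exact Or.inr rfl
    intro A hA
    rcases c.two _ (sub hN) _ (sub hK) _ (c.perm g hg A (sub hA)) with e1 | e1 | e1
    · exact absurd e1 hne
    · exact e1 ▸ hN
    · exact e1 ▸ hK

theorem Par.u2 (h : QS T) (p : Par T X C) (h1 : T ⊓ X ≤ R) (h2 : R ≤ T) (h3 : T ≤ 𝐍(R)) :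
    ∀ g ∈ 𝐍(R), Pm C g := by
  have hEQ : sSup C ≤ Qc T C := sSup_le p.leQ
  have hR : R ≠ ⊥ := fun e => p.ne_bot (le_bot_iff.1
    (e ▸ (le_inf (hEQ.trans inf_le_left) p.EX).trans h1))
  have key : ∀ K : Subgroup G, K ≠ ⊥ → K ≤ T → 𝐎(𝐍(K)) ≠ ⊥ := fun K hK hKT e => hK (le_bot_iff.1
    (e ▸ H70.le_pCoreOf (h.syl.isP.to_le hKT) le_normalizer le_rfl))
  have hS : IsSylowIn 2 R (oddGenerated (X ⊔ T) ⊔ R) := by
    have := (h.syl.mono (le_sup_right : T ≤ X ⊔ T) le_top).inf_normal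
      (sup_le_sup_left h2 X) (sup_le (le_sup_left.trans le_normalizer)
        (H69.le_normalizer_sup p.tX h3))
    have e : T ⊓ (X ⊔ R) = R := by
      rw [inf_comm, sup_comm, dedekind_right (h2.trans p.tX) h2, inf_comm, sup_eq_left.2 h1]
    rwa [e, ← p.og] at this
  obtain ⟨R₀, h0, hle, hn⟩ := h.q23 𝐍(R) (X ⊔ T) R h3 le_sup_right (key R hR h2)
    (fun e => p.ne_bot (le_bot_iff.1 (e ▸ p.OP ▸ hEQ))) p.uq hR h2 hS le_rfl
  exact fun g hg => p.u1 h (le_sup_right.trans hn) (key R₀ h0 (hle.trans h2)) g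
    (hn (mem_sup_left hg))

end H16Q
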