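import Mathlib
import Cfsg.Agent.Base
import Cfsg.Agent.Lib.QZ.B1
import Cfsg.Agent.Lib.QZ.U

/-!
Fusion in `Q₁ ∩ Q₂` is controlled by `T`.
-/

set_option autoImplicit false
set_option linter.unusedSectionVars false
set_option linter.unusedVariables false

namespace H16Q

open Subgroup H69 H70 Cfsg
open scoped commutatorElement Pointwise

variable {G : Type*} [Group G] [Finite G]

variable {T X X₁ X₂ H M R : Subgroup G} {C C₁ C₂ : Set (Subgroup G)}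

/-- the Baumann subgroup is weakly closed. -/
theorem FUS_wc {g : G} (h : 𝐁(T) ^ᶜ g ≤ T) : 𝐁(T) ^ᶜ g = 𝐁(T) := by
  have hJ : 𝐉(T) ^ᶜ g = 𝐉(T) := by
    apply cj_eq_of_cj_le
    rw [cj_le_iff, H24.thompsonSubgroupOf_le_iff]
    intro A hA
    rw [← cj_le_iff]
    refine H24.le_thompsonSubgroupOf (H24.mem_maxEA_of_card_le hA
      ((cj_mono g ((H24.le_thompsonSubgroupOf hA).trans (J_le_B T))).trans h) ?_ (card_cj A g).ge)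
    exact ((H24.map_mem_maxEA_iff (MulAut.conj g).injective).2 hA).2.1
  apply cj_eq_of_cj_le
  refine le_inf h ((cj_mono g (B_le_cent T)).trans ?_)
  rw [cj_centralizer, cj_oz2, hJ]
  exact le_rfl

theorem FUS_rel {K N : Subgroup G} {g a : G} (h1 : g ∈ 𝐍(K)) (h2 : g ∈ 𝐍(N))
    (ha : a ∈ H2.relCentralizer K N) : g * a * g⁻¹ ∈ H2.relCentralizer K N := by
  refine H2.mem_relCentralizer.2 ⟨mul_mem (mul_mem h2 ha.1) (inv_mem h2), fun z hz => ?_⟩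
  have e : ⁅g * a * g⁻¹, z⁆ = g * ⁅a, g⁻¹ * z * g⁆ * g⁻¹ := by
    simp only [commutatorElement_def]; group
  rw [e]
  exact conj_mem_of_mem_normalizer h2 (ha.2 _ (conj_mem_of_mem_normalizer' h1 hz))

theorem Str.FUS_Q (h : Str T X₁ X₂ C₁ C₂) : Qc T C₁ = 𝐁(T) ⊓ 𝐂(sSup C₁) := by
  refine le_antisymm (le_inf ?_ inf_le_right) (inf_le_inf_right _ (B_le T))
  rw [h.s1.QE, h.s1.B0]
  exact sup_le (le_sup_left.trans le_sup_left) le_sup_right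

theorem Str.FUS_E (h : Str T X₁ X₂ C₁ C₂) : sSup C₁ ≤ Qc T C₁ := sSup_le h.p1.leQ

theorem Str.FUS_A (h : Str T X₁ X₂ C₁ C₂) :
    H2.relCentralizer (Qc T C₁) (sSup C₁) ⊓ 𝐂(sSup C₁) ≤ Qc T C₁ := by
  have tE : T ≤ 𝐍(sSup C₁) := fun t ht => (h.p1.tperm t ht).norm_sSup
  refine le_inf (h.qs.syl.le_of_le_normalizer ?_ le_top ?_) inf_le_right
  · rintro ⟨g, hg, hc⟩
    refine ⟨2, Subtype.ext ?_⟩
    have h2 : g * g ∈ Qc T C₁ := h.p1.cQ fun q hq => by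
      have he : ⁅g, q⁆ ∈ sSup C₁ := hg.2 q hq
      have e1 : g * ⁅g, q⁆ * g⁻¹ = ⁅g, q⁆ := conj_eq_of_mem_centralizer hc he
      have e2 : ⁅g, q⁆ ^ 2 = 1 := h.s1.ea.2 _ (h.FUS_E he)
      have e3 : ⁅g * g, q⁆ = 1 := by
        calc ⁅g * g, q⁆ = g * ⁅g, q⁆ * g⁻¹ * ⁅g, q⁆ := by simp only [commutatorElement_def]; group
          _ = 1 := by rw [e1, ← pow_two, e2]
      exact (commutatorElement_eq_one_iff_commute.1 e3).symm.eq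
    have := h.s1.ea.2 _ h2
    show g ^ (2 ^ 2) = 1
    rw [← this]
    simp only [pow_succ, pow_zero, one_mul, mul_assoc, show (2 * 2 : ℕ) = 0 + 1 + 1 + 1 + 1 from rfl]
  · refine H69.le_normalizer_inf (le_normalizer_of_cj_le fun t ht a ha => ?_)
      (H69.le_normalizer_centralizer tE)
    obtain ⟨b, hb, rfl⟩ := mem_cj'.1 ha
    exact FUS_rel (h.p1.tQ ht) (tE ht) hb

theorem Str.FUS_Y (h : Str T X₁ X₂ C₁ C₂) {g y : G} (h1 : g ∈ 𝐍(𝐁(T))) (h2 : g ∈ 𝐂(sSup C₁))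
    (hy : y ∈ Yc T X₁ C₁) : g * y * g⁻¹ ∈ Yc T X₁ C₁ := by
  have gE : g ∈ 𝐍(sSup C₁) := centralizer_le_normalizer _ h2
  have gQ : g ∈ 𝐍(Qc T C₁) := by
    rw [h.FUS_Q]
    exact H69.le_normalizer_inf (L := zpowers g) (zpowers_le_of_mem h1)
      (H69.le_normalizer_centralizer (zpowers_le_of_mem gE)) (mem_zpowers g)
  refine ⟨conj_mem_of_mem_normalizer gQ hy.1, fun x hx => ?_⟩
  have xE : x ∈ 𝐍(sSup C₁) := (Pm.of_norm fun N hN => h.p1.Xn N hN hx).norm_sSup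
  have xR : x ∈ H2.relCentralizer (Qc T C₁) (sSup C₁) := mem_relCentralizer_of_le hx xE h.s1.cm
  have hc : g⁻¹ * x * g⁻¹⁻¹ * x⁻¹ ∈ Qc T C₁ := by
    refine h.FUS_A (mem_inf.2 ⟨mul_mem (FUS_rel (inv_mem gQ) (inv_mem gE) xR) (inv_mem xR), ?_⟩)
    have : g⁻¹ * x * g⁻¹⁻¹ * x⁻¹ = g⁻¹ * (x * g * x⁻¹) := by group
    rw [this]
    exact mul_mem (inv_mem h2)
      (conj_mem_of_mem_normalizer (H69.normalizer_le_normalizer_centralizer _ xE) h2)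
  have e1 : y * (g⁻¹ * x * g⁻¹⁻¹ * x⁻¹) = g⁻¹ * x * g⁻¹⁻¹ * x⁻¹ * y :=
    H24.EA.le_centralizer h.s1.ea hc y hy.1
  have e2 : x * y = y * x := hy.2 x hx
  calc x * (g * y * g⁻¹) = g * (g⁻¹ * x * g⁻¹⁻¹ * x⁻¹) * (x * y) * g⁻¹ := by group
    _ = g * (g⁻¹ * x * g⁻¹⁻¹ * x⁻¹ * y) * x * g⁻¹ := by rw [e2]; group
    _ = g * y * g⁻¹ * x := by rw [← e1]; group

theorem Str.FUS_odd (h : Str T X₁ X₂ C₁ C₂) {g : G} (h1 : g ∈ 𝐍(𝐁(T))) (ho : Odd (orderOf g)) :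
    g ∈ 𝐂(Qc T C₁ ⊓ Qc T C₂) := by
  have tB : T ≤ 𝐍(𝐁(T)) := le_normalizer.trans (norm_le_norm_B T)
  have p1 := h.p1.u2 h.qs h.p1.XB (B_le T) tB g h1
  have p2 := h.p2.u2 h.qs h.p2.XB (B_le T) tB g h1
  have c1 := h.toOne.odd_cent p1 p2 ho
  have c2 := h.toOne.symm.odd_cent p2 p1 ho
  rw [h.s1.IR, H69.centralizer_sup]
  refine ⟨H69.centralizer_anti inf_le_left c1, fun y hy => ?_⟩
  have hI : y ∈ Qc T C₂ ⊓ Qc T C₁ := ⟨h.s1.YI hy, hy.1⟩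
  have ab := H24.EA.le_centralizer h.s2.ea
  rw [h.s2.IR, mem_sup_of_le_normalizer_right (le_normalizer_of_le_centralizer
    ((inf_le_left.trans h.symm.FUS_E).trans (ab.trans (H69.centralizer_anti inf_le_left))))] at hI
  obtain ⟨r, hr, z, hz, e⟩ := hI
  have m1 : g * y * g⁻¹ * y⁻¹ ∈ Yc T X₁ C₁ := mul_mem (h.FUS_Y h1 c1 hy) (inv_mem hy)
  have m2 : g * z * g⁻¹ * z⁻¹ ∈ Yc T X₂ C₂ := mul_mem (h.symm.FUS_Y h1 c2 hz) (inv_mem hz)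
  have e1 : r * g = g * r := c2 r hr.1
  have e2 : r * (g * z * g⁻¹ * z⁻¹) = g * z * g⁻¹ * z⁻¹ * r := ab m2.1 r (h.symm.FUS_E hr.1)
  have e3 : g * y * g⁻¹ * y⁻¹ = g * z * g⁻¹ * z⁻¹ := by
    calc g * y * g⁻¹ * y⁻¹ = (g * r) * z * g⁻¹ * z⁻¹ * r⁻¹ := by rw [e]; group
      _ = r * (g * z * g⁻¹ * z⁻¹) * r⁻¹ := by rw [← e1]; group
      _ = g * z * g⁻¹ * z⁻¹ := by rw [e2]; group
  have e4 : g * y * g⁻¹ * y⁻¹ = 1 := mem_bot.1 (h.s1.YY ▸ mem_inf.2 ⟨m1, e3 ▸ m2⟩)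
  calc y * g = (g * y * g⁻¹ * y⁻¹)⁻¹ * (g * y) := by group
    _ = g * y := by rw [e4]; group

theorem Str.FUS_I (h : Str T X₁ X₂ C₁ C₂) {a : G} (ha : a ∈ Qc T C₁ ⊓ Qc T C₂) :
    𝐁(T) ≤ 𝐂(zpowers a) := by
  rw [le_centralizer_iff, zpowers_le, h.s1.B0, H69.centralizer_sup, H69.centralizer_sup]
  exact ⟨⟨ha.1.2, ha.2.2⟩,
    H69.centralizer_anti inf_le_left (H24.EA.le_centralizer h.s1.ea ha.1)⟩

theorem Str.fus (h : Str T X₁ X₂ C₁ C₂) {a b : G} (ha : a ∈ Qc T C₁ ⊓ Qc T C₂) (hb : b ∈ Qc T C₁ ⊓ Qc T C₂)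
    (hab : IsConj a b) : ∃ t ∈ T, t * a * t⁻¹ = b := by
  obtain ⟨g, hg⟩ := isConj_iff.1 hab
  have hB : IsPGroup 2 𝐁(T) := h.qs.syl.isP.to_le (B_le T)
  have h1 : 𝐁(T) ^ᶜ g ≤ 𝐂(zpowers b) := by
    rw [← hg, ← cj_zpowers, ← cj_centralizer]
    exact cj_mono g (h.FUS_I ha)
  obtain ⟨S, hS, hBS⟩ := exists_isSylowIn_le hB (h.FUS_I hb)
  obtain ⟨c, hc, h2⟩ := hS.exists_cj_le (isPGroup_cj hB g) h1
  obtain ⟨k, -, h3⟩ := h.qs.syl.exists_cj_le hS.isP le_top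
  have e1 := FUS_wc ((cj_mono k hBS).trans h3)
  have h4 := (cj_mono k h2).trans h3
  rw [cj_cj, cj_cj] at h4
  have e2 := FUS_wc h4
  have hn : c * g ∈ 𝐍(𝐁(T)) := by
    rw [← cj_eq_self_iff, ← cj_inj (g := k), cj_cj, e1, ← mul_assoc, e2]
  have tB : T ≤ 𝐍(𝐁(T)) := le_normalizer.trans (norm_le_norm_B T)
  have hs := (h.qs.syl.mono tB le_top).sup_res
  rw [← hs, mem_sup_of_le_normalizer_right (tB.trans (le_normalizer_res _))] at hn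
  obtain ⟨t, ht, r, hr, e⟩ := hn
  have hr' : r ∈ 𝐂(Qc T C₁ ⊓ Qc T C₂) :=
    res_le_iff.2 (fun g hg ho => h.FUS_odd hg (Nat.coprime_two_right.1 ho)) hr
  refine ⟨t, ht, ?_⟩
  calc t * a * t⁻¹ = t * (r * a * r⁻¹) * t⁻¹ := by rw [conj_eq_of_mem_centralizer hr' ha]
    _ = (t * r) * a * (t * r)⁻¹ := by group
    _ = c * (g * a * g⁻¹) * c⁻¹ := by rw [← e]; group
    _ = b := by rw [hg, conj_eq_of_mem_centralizer hc (mem_zpowers b)]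

end H16Q
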