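import Mathlib
import Cfsg.Agent.Base
import Cfsg.Agent.Lib.QZ.U
import Cfsg.Agent.Lib.LocEven.Amalgam

/-!
The coset geometry of a pair.
-/

set_option autoImplicit false
set_option linter.unusedSectionVars false
set_option linter.unusedVariables false

namespace H16Q

open Subgroup H69 H70 Cfsg
open scoped commutatorElement Pointwise

universe u

variable {G : Type u} [Group G] [Finite G] {T X₁ X₂ : Subgroup G} {C₁ C₂ : Set (Subgroup G)}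

theorem geo_pm {T X : Subgroup G} {C : Set (Subgroup G)} (p : Par T X C) : ∀ g ∈ X ⊔ T, Pm C g :=
  Pm.of_sup (fun a ha => Pm.of_norm fun N hN => p.Xn N hN ha) p.tperm

theorem geo_normE {T X : Subgroup G} {C : Set (Subgroup G)} (p : Par T X C) : X ⊔ T ≤ 𝐍(sSup C) :=
  fun g hg => (geo_pm p g hg).norm_sSup

theorem geo_normX {T X : Subgroup G} {C : Set (Subgroup G)} (p : Par T X C) : X ⊔ T ≤ 𝐍(X) :=
  sup_le le_normalizer p.tX

theorem geo_normQ {T X : Subgroup G} {C : Set (Subgroup G)} (p : Par T X C) : X ⊔ T ≤ 𝐍(Qc T C) :=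
  sup_le p.XQ p.tQ

theorem Pair.not_le (h : Pair T X₁ X₂ C₁ C₂) : ¬ T ⊓ X₂ ≤ Qc T C₁ := by
  intro hle
  have h1 := Par.u2 h.qs h.p2 hle inf_le_left h.p1.tQ
  refine h.p2.ne_bot (h.core _ ?_ (fun g hg => (h1 g (geo_normQ h.p1 hg)).norm_sSup) (geo_normE h.p2))
  exact h.qs.syl.isP.to_le (sSup_le fun N hN => (h.p2.leQ N hN).trans inf_le_left)

theorem Pair.K (h : Pair T X₁ X₂ C₁ C₂) : ∀ M ∈ C₂, X₁ ⊓ 𝐂(sSup C₁) ≤ 𝐍(M) := by
  intro M hM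
  have hS : IsSylowIn 2 (T ⊓ (X₁ ⊓ 𝐂(sSup C₁))) (X₁ ⊓ 𝐂(sSup C₁)) :=
    (h.qs.syl.mono le_sup_right le_top : IsSylowIn 2 T (X₁ ⊔ T)).inf_normal (inf_le_left.trans le_sup_left)
      (H69.le_normalizer_inf (geo_normX h.p1) (H69.le_normalizer_centralizer (geo_normE h.p1)))
  refine Pm.norm_of_sylow h.p2.two hS (fun k hk => h.c2 k (h.p1.cz hk)) hM ?_
  exact ((inf_le_inf_left T inf_le_left).trans h.p1.XB).trans (h.p2.Bn M hM)

/-- the conjugate of a set of subgroups. -/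
def GeoCj (C : Set (Subgroup G)) (g : G) : Set (Subgroup G) := {M | M ^ᶜ g⁻¹ ∈ C}

theorem geo_mem_cj {C : Set (Subgroup G)} {g : G} {M : Subgroup G} : M ∈ GeoCj C g ↔ M ^ᶜ g⁻¹ ∈ C := Iff.rfl

theorem geo_cj_mem {C : Set (Subgroup G)} (g : G) {M : Subgroup G} (h : M ∈ C) : M ^ᶜ g ∈ GeoCj C g := by
  rw [geo_mem_cj, cj_cj_inv]; exact h

theorem geo_ex {C : Set (Subgroup G)} {g : G} {M : Subgroup G} (h : M ∈ GeoCj C g) :
    ∃ N ∈ C, M = N ^ᶜ g := ⟨_, h, (cj_inv_cj M g).symm⟩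

theorem geo_cj_cj (C : Set (Subgroup G)) (g k : G) : GeoCj (GeoCj C g) k = GeoCj C (k * g) := by
  ext M
  simp only [geo_mem_cj, cj_cj, mul_inv_rev]

theorem geo_cj_one (C : Set (Subgroup G)) : GeoCj C 1 = C := by
  ext M
  rw [geo_mem_cj, inv_one, cj_one]

theorem geo_cj_eq {C : Set (Subgroup G)} {g : G} (h : Pm C g) : GeoCj C g = C := by
  ext M
  rw [geo_mem_cj]
  constructor
  · intro hM
    have := h _ hM
    rwa [cj_inv_cj] at this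
  · exact fun hM => h.inv M hM

theorem geo_cent {N : Subgroup G} {g x : G} : g * x * g⁻¹ ∈ 𝐂(N ^ᶜ g) ↔ x ∈ 𝐂(N) := by
  rw [← cj_centralizer, cj_mem_iff]

theorem geo_norm {N : Subgroup G} {g x : G} : g * x * g⁻¹ ∈ 𝐍(N ^ᶜ g) ↔ x ∈ 𝐍(N) := by
  rw [← cj_normalizer, cj_mem_iff]

theorem geo_le_cent {A N : Subgroup G} {g : G} : A ^ᶜ g ≤ 𝐂(N ^ᶜ g) ↔ A ≤ 𝐂(N) := by
  rw [← cj_centralizer, cj_le_cj_iff]

theorem geo_le_norm {A N : Subgroup G} {g : G} : A ^ᶜ g ≤ 𝐍(N ^ᶜ g) ↔ A ≤ 𝐍(N) := by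
  rw [← cj_normalizer, cj_le_cj_iff]

theorem geo_surj (A : Subgroup G) (g : G) : ∃ B : Subgroup G, A = B ^ᶜ g := ⟨_, (cj_inv_cj A g).symm⟩

/-- the data at a vertex. -/
structure GeoVA (P X Q : Subgroup G) (C : Set (Subgroup G)) : Prop where
  X_le : X ≤ P
  Q_le : Q ≤ P
  Q_p : IsPGroup 2 Q
  four : ∀ N ∈ C, Four N
  leQ : ∀ N ∈ C, N ≤ Q
  Qc : ∀ N ∈ C, Q ≤ 𝐂(N)
  ne : C.Nonempty
  two : Two C
  disj : Disj C
  Xn : ∀ N ∈ C, X ≤ 𝐍(N)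
  even : ∀ N ∈ C, ∀ x ∈ X, x ∉ 𝐂(N) → Fpf N x
  full : ∀ N ∈ C, ∃ x ∈ X, x ∉ 𝐂(N) ∧ ∀ M ∈ C, M ≠ N → x ∈ 𝐂(M)
  syl : ∀ A : Subgroup G, A ≤ P → IsPGroup 2 A → (∀ N ∈ C, A ≤ 𝐂(N)) → A ≤ Q
  s2 : Q ⊓ X ≤ ⁅Q, X⁆
  gen : ∀ L : Subgroup G, L ≤ P → P ≤ 𝐍(L) → X ≤ L ∨ ∀ N ∈ C, L ≤ 𝐂(N)

theorem GeoVA.cj {P X Q : Subgroup G} {C : Set (Subgroup G)} (h : GeoVA P X Q C) (g : G) :
    GeoVA (P ^ᶜ g) (X ^ᶜ g) (Q ^ᶜ g) (GeoCj C g) where
  X_le := cj_mono g h.X_le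
  Q_le := cj_mono g h.Q_le
  Q_p := isPGroup_cj h.Q_p g
  four := fun N hN => by
    obtain ⟨N, hN0, rfl⟩ := geo_ex hN
    replace hN := hN0
    exact (h.four N hN).cj g
  leQ := fun N hN => by
    obtain ⟨N, hN0, rfl⟩ := geo_ex hN
    replace hN := hN0
    exact cj_mono g (h.leQ N hN)
  Qc := fun N hN => by
    obtain ⟨N, hN0, rfl⟩ := geo_ex hN
    replace hN := hN0
    exact geo_le_cent.2 (h.Qc N hN)
  ne := let ⟨N, hN⟩ := h.ne; ⟨_, geo_cj_mem g hN⟩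
  two := fun A hA B hB D hD => by
    obtain ⟨A, hA0, rfl⟩ := geo_ex hA
    replace hA := hA0
    obtain ⟨B, hB0, rfl⟩ := geo_ex hB
    replace hB := hB0
    obtain ⟨D, hD0, rfl⟩ := geo_ex hD
    replace hD := hD0
    simp only [cj_inj]
    exact h.two A hA B hB D hD
  disj := fun A hA B hB hAB => by
    obtain ⟨A, hA0, rfl⟩ := geo_ex hA
    replace hA := hA0
    obtain ⟨B, hB0, rfl⟩ := geo_ex hB
    replace hB := hB0
    rw [← cj_inf, h.disj A hA B hB (fun e => hAB (by rw [e])), cj_bot]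
  Xn := fun N hN => by
    obtain ⟨N, hN0, rfl⟩ := geo_ex hN
    replace hN := hN0
    exact geo_le_norm.2 (h.Xn N hN)
  even := fun N hN x hx hc => by
    obtain ⟨N, hN0, rfl⟩ := geo_ex hN
    replace hN := hN0
    obtain ⟨x, hx0, rfl⟩ := mem_cj'.1 hx
    replace hx := hx0
    exact (h.even N hN x hx (fun e => hc (geo_cent.2 e))).cj g
  full := fun N hN => by
    obtain ⟨N, hN0, rfl⟩ := geo_ex hN
    replace hN := hN0
    obtain ⟨x, hx, h1, h2⟩ := h.full N hN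
    refine ⟨_, cj_mem g hx, fun e => h1 (geo_cent.1 e), fun M hM hne => ?_⟩
    obtain ⟨M, hM0, rfl⟩ := geo_ex hM
    replace hM := hM0
    exact geo_cent.2 (h2 M hM (fun e => hne (by rw [e])))
  syl := fun A hA h2 hc => by
    obtain ⟨A, rfl⟩ := geo_surj A g
    exact cj_mono g (h.syl A (cj_le_cj_iff.1 hA) (isPGroup_cj_iff.1 h2)
      fun N hN => geo_le_cent.1 (hc _ (geo_cj_mem g hN)))
  s2 := by
    rw [← cj_inf, ← cj_commutator]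
    exact cj_mono g h.s2
  gen := fun L hL hn => by
    obtain ⟨L, rfl⟩ := geo_surj L g
    rcases h.gen L (cj_le_cj_iff.1 hL) (geo_le_norm.1 hn) with e | e
    · exact Or.inl (cj_mono g e)
    · refine Or.inr fun N hN => ?_
      obtain ⟨N, hN0, rfl⟩ := geo_ex hN
      replace hN := hN0
      exact geo_le_cent.2 (e N hN)

theorem geo_va {T X : Subgroup G} {C : Set (Subgroup G)} (h : QS T) (p : Par T X C) :
    GeoVA (X ⊔ T) X (Qc T C) C where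
  X_le := le_sup_left
  Q_le := inf_le_left.trans le_sup_right
  Q_p := h.syl.isP.to_inf_left
  four := p.four
  leQ := p.leQ
  Qc := le_cent_sSup.1 inf_le_right
  ne := p.ne
  two := p.two
  disj := p.disj
  Xn := p.Xn
  even := p.even
  full := p.full
  syl := fun A hA h2 hc => p.syl A hA h2 (le_cent_sSup.2 hc)
  s2 := (inf_le_inf_right X inf_le_left).trans p.s2
  gen := fun L hL hn => (p.gen L hL hn).imp id le_cent_sSup.1

/-- the data at an edge. -/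
structure GeoEA (P X Q : Subgroup G) (C : Set (Subgroup G)) (P' X' Q' : Subgroup G) (C' : Set (Subgroup G)) :
    Prop where
  Q_le : Q ≤ P'
  xtr : ∀ p ∈ P, ∃ x ∈ X, x⁻¹ * p ∈ P'
  ctr : ∀ N ∈ C, ∀ M ∈ C, ∃ s ∈ P ⊓ P', N ^ᶜ s = M
  K : ∀ c ∈ X, (∀ N ∈ C, c ∈ 𝐂(N)) → ∀ M ∈ C', c ∈ 𝐍(M)
  On : ∀ N ∈ C, Q' ⊓ X' ≤ 𝐍(N)
  S : ¬ Q' ⊓ X' ≤ Q
  core : ∀ U : Subgroup G, U ≤ Q → P ≤ 𝐍(U) → P' ≤ 𝐍(U) → U = ⊥

theorem GeoEA.cj {P X Q P' X' Q' : Subgroup G} {C C' : Set (Subgroup G)} (h : GeoEA P X Q C P' X' Q' C')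
    (g : G) : GeoEA (P ^ᶜ g) (X ^ᶜ g) (Q ^ᶜ g) (GeoCj C g) (P' ^ᶜ g) (X' ^ᶜ g) (Q' ^ᶜ g) (GeoCj C' g) where
  Q_le := cj_mono g h.Q_le
  xtr := fun p hp => by
    obtain ⟨p, hp0, rfl⟩ := mem_cj'.1 hp
    replace hp := hp0
    obtain ⟨x, hx, h1⟩ := h.xtr p hp
    refine ⟨_, cj_mem g hx, ?_⟩
    have := cj_mem g h1
    convert this using 1
    group
  ctr := fun N hN M hM => by
    obtain ⟨N, hN0, rfl⟩ := geo_ex hN
    replace hN := hN0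
    obtain ⟨M, hM0, rfl⟩ := geo_ex hM
    replace hM := hM0
    obtain ⟨s, hs, rfl⟩ := h.ctr N hN M hM
    refine ⟨g * s * g⁻¹, ⟨cj_mem g hs.1, cj_mem g hs.2⟩, ?_⟩
    rw [cj_cj, cj_cj, inv_mul_cancel_right]
  K := fun c hc h1 M hM => by
    obtain ⟨c, hc0, rfl⟩ := mem_cj'.1 hc
    replace hc := hc0
    obtain ⟨M, hM0, rfl⟩ := geo_ex hM
    replace hM := hM0
    exact geo_norm.2 (h.K c hc (fun N hN => geo_cent.1 (h1 _ (geo_cj_mem g hN))) M hM)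
  On := fun N hN => by
    obtain ⟨N, hN0, rfl⟩ := geo_ex hN
    replace hN := hN0
    rw [← cj_inf]
    exact geo_le_norm.2 (h.On N hN)
  S := by
    rw [← cj_inf, cj_le_cj_iff]
    exact h.S
  core := fun U hU h1 h2 => by
    obtain ⟨U, rfl⟩ := geo_surj U g
    rw [h.core U (cj_le_cj_iff.1 hU) (geo_le_norm.1 h1) (geo_le_norm.1 h2), cj_bot]

theorem geo_ea (h : Pair T X₁ X₂ C₁ C₂) :
    GeoEA (X₁ ⊔ T) X₁ (Qc T C₁) C₁ (X₂ ⊔ T) X₂ (Qc T C₂) C₂ where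
  Q_le := inf_le_left.trans le_sup_right
  xtr := fun p hp => by
    obtain ⟨x, hx, t, ht, rfl⟩ := (mem_sup_of_le_normalizer_left h.p1.tX).1 hp
    refine ⟨x, hx, ?_⟩
    rw [inv_mul_cancel_left]
    exact mem_sup_right ht
  ctr := fun N hN M hM =>
    let ⟨t, ht, e⟩ := h.p1.ttr N hN M hM
    ⟨t, ⟨mem_sup_right ht, mem_sup_right ht⟩, e⟩
  K := fun c hc h1 M hM => h.K M hM ⟨hc, mem_cent_sSup.2 h1⟩
  On := fun N hN => ((inf_le_inf_right X₂ inf_le_left).trans h.p2.XB).trans (h.p1.Bn N hN)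
  S := fun e => h.not_le ((le_inf h.p2.TXQ inf_le_right).trans e)
  core := fun U hU h1 h2 => h.core U (h.qs.syl.isP.to_le (hU.trans inf_le_left)) h1 h2

/-- a function on the vertices given by two functions on the group. -/
def geoLift {α : Type*} (P₁ P₂ : Subgroup G) (F₁ F₂ : G → α) (h₁ : ∀ g, ∀ p ∈ P₁, F₁ (g * p) = F₁ g)
    (h₂ : ∀ g, ∀ p ∈ P₂, F₂ (g * p) = F₂ g) : CosetVertex P₁ P₂ → α :=
  Sum.elim
    (fun q => Quotient.liftOn' q F₁ fun a b hab => by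
      rw [QuotientGroup.leftRel_apply] at hab
      rw [← h₁ a _ hab, mul_inv_cancel_left])
    (fun q => Quotient.liftOn' q F₂ fun a b hab => by
      rw [QuotientGroup.leftRel_apply] at hab
      rw [← h₂ a _ hab, mul_inv_cancel_left])

theorem geoLift_vl {α : Type*} {P₁ P₂ : Subgroup G} {F₁ F₂ : G → α} (h₁ : ∀ g, ∀ p ∈ P₁, F₁ (g * p) = F₁ g)
    (h₂ : ∀ g, ∀ p ∈ P₂, F₂ (g * p) = F₂ g) (g : G) :
    geoLift P₁ P₂ F₁ F₂ h₁ h₂ (g • H68.vl P₁ P₂) = F₁ g := by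
  rw [H68.smul_vl]; rfl

theorem geoLift_vr {α : Type*} {P₁ P₂ : Subgroup G} {F₁ F₂ : G → α} (h₁ : ∀ g, ∀ p ∈ P₁, F₁ (g * p) = F₁ g)
    (h₂ : ∀ g, ∀ p ∈ P₂, F₂ (g * p) = F₂ g) (g : G) :
    geoLift P₁ P₂ F₁ F₂ h₁ h₂ (g • H68.vr P₁ P₂) = F₂ g := by
  rw [H68.smul_vr]; rfl

theorem geo_exS {P₁ P₂ A₁ A₂ : Subgroup G} (h₁ : P₁ ≤ 𝐍(A₁)) (h₂ : P₂ ≤ 𝐍(A₂)) :
    ∃ F : CosetVertex P₁ P₂ → Subgroup G, (∀ g : G, F (g • H68.vl P₁ P₂) = A₁ ^ᶜ g) ∧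
      ∀ g : G, F (g • H68.vr P₁ P₂) = A₂ ^ᶜ g :=
  ⟨geoLift P₁ P₂ (fun g => A₁ ^ᶜ g) (fun g => A₂ ^ᶜ g)
    (fun g p hp => by rw [← cj_cj, cj_eq_of_mem_normalizer (h₁ hp)])
    (fun g p hp => by rw [← cj_cj, cj_eq_of_mem_normalizer (h₂ hp)]), geoLift_vl _ _, geoLift_vr _ _⟩

theorem geo_exC {P₁ P₂ : Subgroup G} {A₁ A₂ : Set (Subgroup G)} (h₁ : ∀ p ∈ P₁, Pm A₁ p)
    (h₂ : ∀ p ∈ P₂, Pm A₂ p) :
    ∃ F : CosetVertex P₁ P₂ → Set (Subgroup G), (∀ g : G, F (g • H68.vl P₁ P₂) = GeoCj A₁ g) ∧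
      ∀ g : G, F (g • H68.vr P₁ P₂) = GeoCj A₂ g :=
  ⟨geoLift P₁ P₂ (fun g => GeoCj A₁ g) (fun g => GeoCj A₂ g)
    (fun g p hp => by rw [← geo_cj_cj, geo_cj_eq (h₁ p hp)])
    (fun g p hp => by rw [← geo_cj_cj, geo_cj_eq (h₂ p hp)]), geoLift_vl _ _, geoLift_vr _ _⟩

theorem Pair.exists_geo (h : Pair T X₁ X₂ C₁ C₂) :
    ∃ (V : Type u) (_ : MulAction G V) (Γ : Geo G V) (v w : V), Γ.adj v w ∧ Γ.Cm v = C₁ ∧ Γ.Cm w = C₂ ∧
      Γ.Q v = Qc T C₁ ∧ Γ.Q w = Qc T C₂ := by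
  obtain ⟨X, hX1, hX2⟩ := geo_exS (geo_normX h.p1) (geo_normX h.p2)
  obtain ⟨Q, hQ1, hQ2⟩ := geo_exS (geo_normQ h.p1) (geo_normQ h.p2)
  obtain ⟨C, hC1, hC2⟩ := geo_exC (geo_pm h.p1) (geo_pm h.p2)
  have va : ∀ v : CosetVertex (X₁ ⊔ T) (X₂ ⊔ T), GeoVA (MulAction.stabilizer G v) (X v) (Q v) (C v) := by
    intro v
    obtain ⟨g, rfl | rfl⟩ := H68.vertex_cases v
    · rw [H68.stabilizer_smul_vl, hX1, hQ1, hC1]
      exact (geo_va h.qs h.p1).cj g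
    · rw [H68.stabilizer_smul_vr, hX2, hQ2, hC2]
      exact (geo_va h.qs h.p2).cj g
  have ea : ∀ {v w : CosetVertex (X₁ ⊔ T) (X₂ ⊔ T)}, (cosetGraph (X₁ ⊔ T) (X₂ ⊔ T)).Adj v w →
      GeoEA (MulAction.stabilizer G v) (X v) (Q v) (C v) (MulAction.stabilizer G w) (X w) (Q w) (C w) := by
    intro v w hvw
    obtain ⟨g, ⟨rfl, rfl⟩ | ⟨rfl, rfl⟩⟩ := H68.adj_iff.1 hvw
    · rw [H68.stabilizer_smul_vl, H68.stabilizer_smul_vr, hX1, hQ1, hC1, hX2, hQ2, hC2]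
      exact (geo_ea h).cj g
    · rw [H68.stabilizer_smul_vl, H68.stabilizer_smul_vr, hX1, hQ1, hC1, hX2, hQ2, hC2]
      exact (geo_ea h.symm).cj g
  refine ⟨CosetVertex (X₁ ⊔ T) (X₂ ⊔ T), inferInstance,
    { adj := (cosetGraph (X₁ ⊔ T) (X₂ ⊔ T)).Adj
      X := X
      Q := Q
      Cm := C
      symm := fun e => e.symm
      adj_smul := fun g _ _ e => H68.adj_smul e g
      X_smul := fun g v => ?_
      Q_smul := fun g v => ?_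
      Cm_smul := fun g v N hN => ?_
      ex := ⟨_, _, H68.adj_vl_vr⟩
      etr := fun {v w v' w'} e e' => ?_
      X_le := fun v => (va v).X_le
      Q_le := fun v => (va v).Q_le
      Q_le' := fun e => (ea e).Q_le
      Q_p := fun v => (va v).Q_p
      four := fun {v N} hN => (va v).four N hN
      leQ := fun {v N} hN => (va v).leQ N hN
      Qc := fun {v N} hN => (va v).Qc N hN
      ne := fun v => (va v).ne
      two := fun v => (va v).two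
      disj := fun v => (va v).disj
      Xn := fun {v N} hN => (va v).Xn N hN
      even := fun {v N x} hN hx hc => (va v).even N hN x hx hc
      full := fun {v N} hN => (va v).full N hN
      syl := fun v => (va v).syl
      xtr := fun {v w w'} e e' => ?_
      ctr := fun {v w N M} e hN hM => (ea e).ctr N hN M hM
      K := fun {v w c} e hc h1 => (ea e).K c hc h1
      On := fun {v w N} e hN => (ea e).On N hN
      S := fun e => (ea e).S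
      s2 := fun v => (va v).s2
      gen := fun v => (va v).gen
      core := fun {v w} U e => (ea e).core U },
    (1 : G) • H68.vl _ _, (1 : G) • H68.vr _ _, H68.adj_smul H68.adj_vl_vr 1, ?_, ?_, ?_, ?_⟩
  · obtain ⟨k, rfl | rfl⟩ := H68.vertex_cases v
    · rw [← mul_smul, hX1, hX1, cj_cj]
    · rw [← mul_smul, hX2, hX2, cj_cj]
  · obtain ⟨k, rfl | rfl⟩ := H68.vertex_cases v
    · rw [← mul_smul, hQ1, hQ1, cj_cj]
    · rw [← mul_smul, hQ2, hQ2, cj_cj]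
  · obtain ⟨k, rfl | rfl⟩ := H68.vertex_cases v
    · rw [hC1] at hN
      rw [← mul_smul, hC1, ← geo_cj_cj]
      exact geo_cj_mem g hN
    · rw [hC2] at hN
      rw [← mul_smul, hC2, ← geo_cj_cj]
      exact geo_cj_mem g hN
  · obtain ⟨a, ha⟩ := H68.adj_iff.1 e
    obtain ⟨b, hb⟩ := H68.adj_iff.1 e'
    refine ⟨b * a⁻¹, ?_⟩
    rcases ha with ⟨rfl, rfl⟩ | ⟨rfl, rfl⟩ <;> rcases hb with ⟨rfl, rfl⟩ | ⟨rfl, rfl⟩ <;>
      simp only [← mul_smul, inv_mul_cancel_right, and_self, true_or, or_true]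
  · obtain ⟨g, hg, rfl⟩ := H68.exists_stabilizer_smul_eq e e'
    obtain ⟨x, hx, h1⟩ := (ea e).xtr g hg
    refine ⟨x, hx, ?_⟩
    rw [MulAction.mem_stabilizer_iff, mul_smul, inv_smul_eq_iff] at h1
    exact h1.symm
  · show C _ = _
    rw [hC1, geo_cj_one]
  · show C _ = _
    rw [hC2, geo_cj_one]
  · show Q _ = _
    rw [hQ1, cj_one]
  · show Q _ = _
    rw [hQ2, cj_one]

end H16Q
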