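import Mathlib
import Cfsg.Agent.Base
import Cfsg.Agent.Lib.QZ.CT
import Cfsg.Agent.Lib.QZ.FUS
import Cfsg.Agent.Lib.QZ.INV

/-!
The two final configurations.
-/

set_option autoImplicit false
set_option linter.unusedSectionVars false
set_option linter.unusedVariables false

namespace H16Q

open Subgroup H69 H70 Cfsg
open scoped commutatorElement Pointwise

variable {G : Type*} [Group G] [Finite G]

variable {T X X₁ X₂ H M R : Subgroup G} {C C₁ C₂ : Set (Subgroup G)}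

namespace K12

variable {N N' M' : Subgroup G} {z w : G}

theorem csymm {A B : Subgroup G} (h : A ≤ 𝐂(B)) : B ≤ 𝐂(A) := le_centralizer_iff.1 h

theorem uq (h : Mt C₁ C₂ N N' z) (h' : Mt C₁ C₂ M N' w) : M = N := by
  by_contra e
  exact h'.d.nc (csymm (h.o M h'.m e))

theorem EQ (p : Par T X C) : sSup C ≤ Qc T C := sSup_le p.leQ

theorem Yc_E (h : Str T X₁ X₂ C₁ C₂) : Yc T X₁ C₁ ≤ 𝐂(sSup C₁ ⊔ sSup C₂) := by
  rw [H69.centralizer_sup]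
  exact le_inf (inf_le_left.trans inf_le_right) (h.s1.YI.trans inf_le_right)

theorem Yea (h : Str T X₁ X₂ C₁ C₂) : IsElementaryAbelian 2 (Yc T X₁ C₁) := by
  have := h.s1.ea.1
  exact ⟨⟨⟨fun a b => Subtype.ext (congrArg Subtype.val
    (this.1.1 (⟨a.1, a.2.1⟩ : Qc T C₁) ⟨b.1, b.2.1⟩) :)⟩⟩, fun a ha => h.s1.ea.2 a ha.1⟩

theorem B_le (h : Str T X₁ X₂ C₁ C₂) : sSup C₁ ⊔ sSup C₂ ⊔ Yc T X₁ C₁ ≤ T :=
  sup_le (sup_le ((EQ h.p1).trans inf_le_left) ((EQ h.p2).trans inf_le_left)) (inf_le_left.trans inf_le_left)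

theorem one (h : Str T X₁ X₂ C₁ C₂) (e1 : C₁ = {N}) : ∃ N' z, Fin1 T N N' (Yc T X₁ C₁) z := by
  have hN : N ∈ C₁ := e1 ▸ Set.mem_singleton N
  obtain ⟨N', z, m⟩ := h.m1 N hN
  have e2 : C₂ = {N'} := Set.eq_singleton_iff_unique_mem.2 ⟨m.m', fun K hK => by
    obtain ⟨L, w, m'⟩ := h.m2 K hK
    have : L = N := Set.mem_singleton_iff.1 (e1 ▸ m'.m)
    subst this
    exact uq m.symm m'.symm⟩
  have s1 : sSup C₁ = N := by rw [e1, sSup_singleton]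
  have s2 : sSup C₂ = N' := by rw [e2, sSup_singleton]
  have hR : sSup C₁ ⊓ sSup C₂ = zpowers z := by rw [s1, s2, m.d.inf]
  have hD : sSup C₁ ⊔ sSup C₂ = N ⊔ N' := by rw [s1, s2]
  have hT : T = N ⊔ N' ⊔ Yc T X₁ C₁ := by
    rw [← hD]
    refine le_antisymm (fun t ht => ?_) (B_le h)
    rw [← h.s1.B0]
    exact h.s1.Bt t ht N hN (cj_eq_self_iff.1 (Set.mem_singleton_iff.1 (e1 ▸ h.p1.tperm t ht N hN)))
  refine ⟨N', z, h.qs.syl, m.d, hT, ?_, ?_, hD ▸ h.s1.DY, h.ct, fun a ha b hb => ?_, fun d hd d2 => ?_⟩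
  · refine csymm (hT.le.trans (sup_le (hD ▸ csymm (Yc_E h)) ?_))
    have := (Yea h).1
    exact le_centralizer _
  · have := h.s1.cardY
    rwa [hR, Nat.card_zpowers, orderOf_eq_prime (p := 2) (by rw [pow_two, m.d.f.sq m.d.z_mem.1]) m.d.z1] at this
  · rw [← hR, ← h.s1.IR] at ha hb
    exact h.fus ha hb
  · have := h.inv (hD ▸ hd) (one_mem _) (by rw [mul_one, d2])
    simpa only [mul_one, hR] using this

theorem not_cent (h : Str T X₁ X₂ C₁ C₂) (m : Mt C₁ C₂ N N' z) (hM : M ∈ C₁) (ne : N ≠ M)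
    (c4 : Nat.card (Yc T X₁ C₁) = 4) : ¬ T ≤ 𝐂(Yc T X₁ C₁) := fun hc => by
  have cm : sSup C₂ ⊓ sSup C₁ ≤ 𝐂(Yc T X₂ C₂) := csymm ((Yc_E h.symm).trans
    (H69.centralizer_anti (inf_le_left.trans le_sup_left)))
  have dec : ∀ y : Yc T X₁ C₁, ∃ r : (sSup C₂ ⊓ sSup C₁ : Subgroup G), (r : G)⁻¹ * y ∈ Yc T X₂ C₂ := fun y => by
    have : (y : G) ∈ Qc T C₂ ⊓ Qc T C₁ := ⟨h.s1.YI y.2, y.2.1⟩
    rw [h.s2.IR] at this
    obtain ⟨r, hr, y', hy', e⟩ := (mem_sup_of_le_normalizer_right (cm.trans (centralizer_le_normalizer _))).1 this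
    exact ⟨⟨r, hr⟩, by rw [e, inv_mul_cancel_left]; exact hy'⟩
  choose r hr using dec
  have inj : Function.Injective r := fun a b e => by
    have h1 := mul_mem (inv_mem (hr a)) (hr b)
    rw [e, show ((r b : G)⁻¹ * a)⁻¹ * ((r b : G)⁻¹ * b) = (a : G)⁻¹ * b by group] at h1
    have : (a : G)⁻¹ * b ∈ Yc T X₁ C₁ ⊓ Yc T X₂ C₂ := ⟨Subgroup.mul_mem _ (Subgroup.inv_mem _ a.2) b.2, h1⟩
    rw [h.s1.YY, mem_bot, inv_mul_eq_one] at this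
    exact Subtype.ext this
  have z1 : z ∈ sSup C₁ := le_sSup m.m m.d.z_mem.1
  have z2 : z ∈ sSup C₂ := le_sSup m.m' m.d.z_mem.2
  obtain ⟨y, hy⟩ := (inj.bijective_of_nat_card_le (c4 ▸ h.s2.cardR)).2 ⟨z, z2, z1⟩
  have h1 := hr y
  rw [hy] at h1
  obtain ⟨t, ht, e⟩ := h.p1.ttr N m.m M hM
  have h2 := mul_mem h1 (inv_mem (conj_mem_of_mem_normalizer (h.s2.tY ht) h1))
  have e1 : z⁻¹ * y * (t * (z⁻¹ * y) * t⁻¹)⁻¹ = z⁻¹ * (t * z * t⁻¹) := by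
    calc _ = z⁻¹ * y * (t * y * t⁻¹)⁻¹ * (t * z * t⁻¹) := by group
      _ = _ := by rw [conj_eq_of_mem_centralizer (hc ht) y.2]; group
  change z⁻¹ * y * (t * (z⁻¹ * y) * t⁻¹)⁻¹ ∈ _ at h2
  rw [e1] at h2
  have h3 : z⁻¹ * (t * z * t⁻¹) ∈ sSup C₂ ⊓ Yc T X₂ C₂ :=
    ⟨Subgroup.mul_mem _ (Subgroup.inv_mem _ z2) (conj_mem_of_mem_normalizer (h.p2.tperm t ht).norm_sSup z2), h2⟩
  rw [h.s2.EY, mem_bot, inv_mul_eq_one] at h3
  exact ne (h.p1.disj.eq m.m hM m.d.z_mem.1 (by rw [h3, ← e]; exact cj_mem t m.d.z_mem.1) m.d.z1)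

theorem two (h : Str T X₁ X₂ C₁ C₂) (ne : N ≠ M) (e1 : C₁ = {N, M}) :
    ∃ N' M' z w, Fin2 T N N' M M' (Yc T X₁ C₁) z w := by
  have hN : N ∈ C₁ := e1 ▸ Set.mem_insert _ _
  have hM : M ∈ C₁ := e1 ▸ Set.mem_insert_of_mem _ (Set.mem_singleton M)
  obtain ⟨N', z, m⟩ := h.m1 N hN
  obtain ⟨M', w, m'⟩ := h.m1 M hM
  have ne' : M' ≠ N' := fun e => ne (uq m' (e ▸ m))
  have e2 : C₂ = {N', M'} := Set.ext fun K => ⟨fun hK => (eq_or_ne K N').imp id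
    (h.p2.two.eq_other m.m' m'.m' ne' hK), by rintro (rfl | rfl); exacts [m.m', m'.m']⟩
  have s1 : sSup C₁ = N ⊔ M := by rw [e1, sSup_pair]
  have s2 : sSup C₂ = N' ⊔ M' := by rw [e2, sSup_pair]
  have hD : sSup C₁ ⊔ sSup C₂ = N ⊔ N' ⊔ (M ⊔ M') := by rw [s1, s2, sup_sup_sup_comm]
  have hB : 𝐁(T) = N ⊔ N' ⊔ (M ⊔ M') ⊔ Yc T X₁ C₁ := by rw [h.s1.B0, hD]
  have c1 : ∀ K ∈ C₁, sSup C₁ ≤ 𝐂(K) := fun K hK => csymm ((h.p1.leQ K hK).trans inf_le_right)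
  have c2 : ∀ K ∈ C₂, sSup C₂ ≤ 𝐂(K) := fun K hK => csymm ((h.p2.leQ K hK).trans inf_le_right)
  have NM : N ≤ 𝐂(M) := (le_sSup hN).trans (c1 M hM)
  have hR : sSup C₁ ⊓ sSup C₂ = zpowers z ⊔ zpowers w := by
    refine le_antisymm (fun x hx => ?_) (sup_le
      (zpowers_le.2 ⟨le_sSup m.m m.d.z_mem.1, le_sSup m.m' m.d.z_mem.2⟩)
      (zpowers_le.2 ⟨le_sSup m'.m m'.d.z_mem.1, le_sSup m'.m' m'.d.z_mem.2⟩))
    obtain ⟨a, ha, b, hb, rfl⟩ :=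
      (mem_sup_of_le_normalizer_right (NM.trans (centralizer_le_normalizer _))).1 (s1 ▸ hx.1)
    exact mul_mem_sup
      (m.d.cent' ha ((mul_mem_cancel_right (csymm (m.o M hM ne.symm) hb)).1 (c2 N' m.m' hx.2)))
      (m'.d.cent' hb ((mul_mem_cancel_left (csymm (m'.o N hN ne) ha)).1 (c2 M' m'.m' hx.2)))
  refine ⟨N', M', z, w, h.qs.syl, m.d, m'.d, ?_, fun e => ne (h.p1.disj.eq hN hM m.d.z_mem.1
    (e ▸ m'.d.z_mem.1) m.d.z1), hD ▸ B_le h, hD ▸ Yc_E h, Yea h, h.s1.tY, hD ▸ h.s1.DY, ?_, ?_, ?_, ?_, h.ct,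
    fun a ha b hb => ?_, fun d hd y hy d2 => hR ▸ h.inv (hD ▸ hd) hy d2, fun s hs hn => h.c3 hs (hB ▸ hn)⟩
  · rw [H69.centralizer_sup]
    exact sup_le (le_inf NM (m.o' M' m'.m' ne'))
      (le_inf (m.o M hM ne.symm) ((le_sSup m.m').trans (c2 M' m'.m')))
  · have hle := h.s1.cardY.trans h.s1.cardR
    obtain ⟨k, hk⟩ := IsPGroup.iff_card.1 (h.qs.syl.isP.to_le
      (show Yc T X₁ C₁ ≤ T from inf_le_left.trans inf_le_left))
    have k2 : k ≤ 2 := (Nat.pow_le_pow_iff_right (by norm_num)).1 (hk ▸ hle : 2 ^ k ≤ 2 ^ 2)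
    interval_cases k
    · exact Or.inl hk
    · exact Or.inr (Or.inl hk)
    · exact Or.inr (Or.inr ⟨hk, not_cent h m hM ne hk⟩)
  · rw [← hB]
    intro x hx y hy nx ny
    exact h.s1.Bt _ (mul_mem hx hy) N hN ((h.p1.tperm x hx).mul_norm h.p1.two (h.p1.tperm y hy) hN
      (fun e => nx (h.s1.Bt x hx N hN e)) fun e => ny (h.s1.Bt y hy N hN e))
  · rw [← hB]
    intro hle
    obtain ⟨t, ht, e⟩ := h.p1.ttr N hN M hM
    exact ne ((cj_eq_of_mem_normalizer (h.p1.Bn N hN (hle ht))).symm.trans e)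
  · rw [← hB]
    intro s hs hn
    have a1 := (h.p1.tperm s hs).swap h.p1.two hN hM ne.symm fun e => hn (h.s1.Bt s hs N hN e)
    have a2 := (h.p2.tperm s hs).swap h.p2.two m.m' m'.m' ne' fun e => hn (h.s2.Bt s hs N' m.m' e)
    exact ⟨a1.1, a2.1, a1.2, a2.2⟩
  · rw [← hR, ← h.s1.IR] at ha hb
    exact h.fus ha hb

end K12

theorem Str.fin (h : Str T X₁ X₂ C₁ C₂) :
    (∃ N N' Y z, Fin1 T N N' Y z) ∨ ∃ N N' M M' Y z w, Fin2 T N N' M M' Y z w := by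
  rcases h.p1.two.cases h.p1.ne with ⟨N, e⟩ | ⟨N, M, ne, e⟩
  · obtain ⟨N', z, f⟩ := K12.one h e
    exact Or.inl ⟨N, N', _, z, f⟩
  · obtain ⟨N', M', z, w, f⟩ := K12.two h ne e
    exact Or.inr ⟨N, N', M, M', _, z, w, f⟩

end H16Q
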