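import Mathlib
import Cfsg.Agent.Base
import Cfsg.Agent.Lib.QZ.GEO
import Cfsg.Agent.Lib.QZ.G6

/-!
The critical distance of a pair is one.
-/

set_option autoImplicit false
set_option linter.unusedSectionVars false
set_option linter.unusedVariables false

namespace H16Q

open Subgroup H69 H70 Cfsg
open scoped commutatorElement Pointwise

variable {G : Type*} [Group G] [Finite G]

variable {T X X₁ X₂ H M R : Subgroup G} {C C₁ C₂ : Set (Subgroup G)}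

theorem ONE_mt {V : Type*} [MulAction G V] (Γ : Geo G V) {v w : V} (ha : Γ.adj v w) (hc : ¬ Γ.E v ≤ Γ.Q w) :
    ∃ N N' z, Mt (Γ.Cm v) (Γ.Cm w) N N' z := by
  have hp : Γ.Path 1 fun i => Nat.casesOn i v fun _ => w := fun i hi => by
    obtain rfl : i = 0 := by omega
    exact ha
  obtain ⟨N, N', z, k⟩ := Geo.mat_ex Γ.below_one le_rfl hp hc
  exact ⟨N, N', z, k.c0.cm, k.c1.cm, ⟨Γ.four k.c0.cm, Γ.four k.c1.cm, (Geo.le_E k.c0.cm).trans (k.n1 _ k.c1.cm),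
    (Geo.le_E k.c1.cm).trans (k.n0 _ k.c0.cm), k.nc, k.inf, k.c0.ne⟩, k.o0, k.o1⟩

theorem ONE_cj {N N' : Subgroup G} {z t : G} (k : Mt C₁ C₂ N N' z) (h1 : Pm C₁ t) (h2 : Pm C₂ t) :
    Mt C₁ C₂ (N ^ᶜ t) (N' ^ᶜ t) (t * z * t⁻¹) := by
  have o : ∀ {C : Set (Subgroup G)} {A B : Subgroup G}, Pm C t → (∀ M ∈ C, M ≠ A → B ≤ 𝐂(M)) →
      ∀ M ∈ C, M ≠ A ^ᶜ t → B ^ᶜ t ≤ 𝐂(M) := fun {C A B} hp ho M hM hne => by
    rw [cj_le_iff, cj_centralizer]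
    exact ho _ (hp.inv M hM) fun e => hne (by rw [← e, cj_inv_cj])
  refine ⟨h1 _ k.m, h2 _ k.m', ⟨k.d.f.cj t, k.d.f'.cj t, ?_, ?_, ?_, ?_, ?_⟩, o h1 k.o, o h2 k.o'⟩
  · rw [← cj_normalizer]; exact cj_mono t k.d.n
  · rw [← cj_normalizer]; exact cj_mono t k.d.n'
  · rw [← cj_centralizer, cj_le_cj_iff]; exact k.d.nc
  · rw [← cj_inf, k.d.inf, cj_zpowers]
  · exact fun e => k.d.z1 (by simpa using e)

theorem Pair.one (h : Pair T X₁ X₂ C₁ C₂) : One T X₁ X₂ C₁ C₂ := by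
  obtain ⟨V, _, Γ, v, w, ha, e1, e2, -, -⟩ := h.exists_geo
  obtain ⟨N, N', z, k⟩ : ∃ N N' z, Mt C₁ C₂ N N' z := by
    obtain ⟨v', w', ha', hc⟩ := Γ.b_one
    obtain ⟨g, hg⟩ := Γ.etr ha' ha
    have hc' : ¬ Γ.E (g • v') ≤ Γ.Q (g • w') := by rwa [Γ.E_smul, Γ.Q_smul, cj_le_cj_iff]
    rw [← e1, ← e2]
    rcases hg with ⟨a, b⟩ | ⟨a, b⟩ <;> rw [a, b] at hc'
    · exact ONE_mt Γ ha hc'
    · obtain ⟨N, N', z, k⟩ := ONE_mt Γ (Γ.symm ha) hc'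
      exact ⟨N', N, z, k.symm⟩
  refine ⟨h, fun A hA => ?_, fun A hA => ?_⟩
  · obtain ⟨t, ht, rfl⟩ := h.p1.ttr N k.m A hA
    exact ⟨_, _, ONE_cj k (h.p1.tperm t ht) (h.p2.tperm t ht)⟩
  · obtain ⟨t, ht, rfl⟩ := h.p2.ttr N' k.m' A hA
    exact ⟨_, _, ONE_cj k (h.p1.tperm t ht) (h.p2.tperm t ht)⟩

end H16Q
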