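import Mathlib
import Cfsg.Agent.Base
import Cfsg.Agent.Lib.QZ.CMP

/-!
The minimal parabolic over an orbit of components.
-/

set_option autoImplicit false
set_option linter.unusedSectionVars false
set_option linter.unusedVariables false

namespace H16Q

open Subgroup H69 H70 Cfsg
open scoped commutatorElement Pointwise

variable {G : Type*} [Group G] [Finite G]

variable {T X X₁ X₂ H M R : Subgroup G} {C C₁ C₂ : Set (Subgroup G)}

/-- the elements acting on `N` trivially or without fixed points. -/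
private def PARev {N : Subgroup G} (h : Four N) : Subgroup G where
  carrier := {x | x ∈ 𝐂(N) ∨ Fpf N x}
  one_mem' := Or.inl (one_mem _)
  mul_mem' := fun ha hb => Fpf.even_mul h ha hb
  inv_mem' := fun ha => ha.imp (fun a => inv_mem a) Fpf.inv

private theorem PAR_norm_rel {V E : Subgroup G} {s : G} (h1 : s ∈ 𝐍(V)) (h2 : s ∈ 𝐍(E)) {f : G}
    (hf : f ∈ H2.relCentralizer V E) : s * f * s⁻¹ ∈ H2.relCentralizer V E := by
  obtain ⟨a, b⟩ := H2.mem_relCentralizer.1 hf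
  refine H2.mem_relCentralizer.2 ⟨mul_mem (mul_mem h2 a) (inv_mem h2), fun z hz => ?_⟩
  have e : ⁅s * f * s⁻¹, z⁆ = s * ⁅f, s⁻¹ * z * s⁆ * s⁻¹ := by
    simp only [commutatorElement_def]; group
  rw [e]
  exact conj_mem_of_mem_normalizer h2 (b _ (conj_mem_of_mem_normalizer' h1 hz))

private theorem PAR_main {V W : Subgroup G} {C₀ : Set (Subgroup G)} {t : G} (hc : Cmp M T C₀)
    (hV : V = 𝐘(2, M)) (sM : IsSylowIn 2 T M) (hZ : 𝐙(T) ≤ V) (hW : W ∈ C₀) (htJ : t ∈ 𝐉(T))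
    (ht1 : ⁅V, zpowers t⁆ ≤ W) (ht2 : t ∉ 𝐂(W)) (hC : C = {N | ∃ s ∈ T, W ^ᶜ s = N}) :
    ∃ X, X ≤ M ∧ Par0 T X C := by
  have hT : T ≤ M := sM.le
  have hMV : M ≤ 𝐍(V) := hV ▸ le_normalizer_Y M
  have hVT : V ≤ T := hV ▸ sM.le_of_le_normalizer (Y_isPGroup M) (Y_le M) (hT.trans (le_normalizer_Y M))
  have hVV : V ≤ 𝐂(V) := hV ▸ Y_le_centralizer M
  have hsub : C ⊆ C₀ := by
    rw [hC]; rintro _ ⟨s, hs, rfl⟩; exact hc.perm s (hT hs) W hW
  have hWC : W ∈ C := by rw [hC]; exact ⟨1, one_mem _, cj_one W⟩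
  have hperm : ∀ s ∈ T, Pm C s := by
    intro s hs N hN
    rw [hC] at hN ⊢
    obtain ⟨u, hu, rfl⟩ := hN
    exact ⟨s * u, mul_mem hs hu, (cj_cj W u s).symm⟩
  have htr : ∀ A ∈ C, ∀ B ∈ C, ∃ t ∈ T, A ^ᶜ t = B := by
    intro A hA B hB
    rw [hC] at hA hB
    obtain ⟨u, hu, rfl⟩ := hA
    obtain ⟨v, hv, rfl⟩ := hB
    exact ⟨v * u⁻¹, mul_mem hv (inv_mem hu), by rw [cj_cj, inv_mul_cancel_right]⟩
  have hNV : ∀ N ∈ C, N ≤ V := fun N hN => hV ▸ hc.le N (hsub hN)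
  have hEV : sSup C ≤ V := sSup_le hNV
  have hTE : T ≤ 𝐍(sSup C) := fun s hs => (hperm s hs).norm_sSup
  obtain ⟨F, hF⟩ : ∃ F : Subgroup G, F = M ⊓ H2.relCentralizer V (sSup C) := ⟨_, rfl⟩
  have hTF : T ≤ 𝐍(F) := by
    refine le_normalizer_of_cj_le fun s hs f hf => ?_
    obtain ⟨a, ha, rfl⟩ := mem_cj'.1 hf
    rw [hF] at ha ⊢
    exact ⟨M.mul_mem (M.mul_mem (hT hs) ha.1) (M.inv_mem (hT hs)), PAR_norm_rel (hMV (hT hs)) (hTE hs) ha.2⟩
  have hFM : F ≤ M := hF ▸ inf_le_left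
  have hH : F ⊔ T ≤ M := sup_le hFM hT
  have hTA : T ≤ 𝐍((F ⊔ T) ⊓ 𝐂(sSup C)) :=
    H69.le_normalizer_inf (H69.le_normalizer_of_le le_sup_right) (H69.le_normalizer_centralizer hTE)
  have hnle : ¬ F ⊔ T ≤ T ⊔ (F ⊔ T) ⊓ 𝐂(sSup C) := by
    intro hle
    obtain ⟨x, hx, h1, h2⟩ := hc.k3 W hW
    rw [← hV] at h1
    have h3 : ⁅V, zpowers x⁆ ≤ sSup C := h1.trans (le_sSup hWC)
    have h4 : x ∈ F := by
      rw [hF]
      exact ⟨hx, mem_relCentralizer_of_le (mem_zpowers x)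
        (le_normalizer_of_commutator_le_left ((commutator_mono hEV le_rfl).trans h3) (mem_zpowers x)) h3⟩
    obtain ⟨s, hs, c, hcc, e⟩ := (mem_sup_of_le_normalizer_right hTA).1 (hle (mem_sup_left h4))
    have h5 := h2.mul_cent (inv_mem (mem_cent_sSup.1 hcc.2 W hWC))
    rw [e, mul_inv_cancel_right] at h5
    exact h5.not_two (hc.four W hW) sM.isP hs
  obtain ⟨P, ⟨hTP, hPH, hPA⟩, hmin⟩ := exists_minimal_of_wellFoundedLT
    (fun P : Subgroup G => T ≤ P ∧ P ≤ F ⊔ T ∧ ¬ P ≤ T ⊔ (F ⊔ T) ⊓ 𝐂(sSup C)) ⟨F ⊔ T, le_sup_right, le_rfl, hnle⟩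
  have hPM : P ≤ M := hPH.trans hH
  have hXT : 𝐑(2, P) ⊔ T = P := (sM.mono hTP hPM).res_sup
  have hXF : 𝐑(2, P) ≤ F := (res_mono hPH).trans (res_sup_le sM.isP hTF)
  have hTX : T ≤ 𝐍(𝐑(2, P)) := hTP.trans (le_normalizer_res P)
  have hXn : ∀ N ∈ C, 𝐑(2, P) ≤ 𝐍(N) := fun N hN => res_le_iff.2 fun x hx ho =>
    (hc.perm x (hPM hx)).odd hc.two (Nat.coprime_two_right.1 ho) (hsub hN)
  have hev : ∀ N ∈ C, ∀ x ∈ 𝐑(2, P), x ∉ 𝐂(N) → Fpf N x := by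
    intro N hN x hx hxc
    have h4 := hc.four N (hsub hN)
    have : 𝐑(2, P) ≤ PARev h4 := res_le_iff.2 fun y hy ho => or_iff_not_imp_left.2 fun hyc =>
      h4.odd_fpf (Nat.coprime_two_right.1 ho) (hXn N hN (mem_res hy ho)) hyc
    exact (this hx).resolve_left hxc
  have hXE : ¬ 𝐑(2, P) ≤ 𝐂(sSup C) := fun hle => hPA (by
    rw [← hXT]
    exact sup_le (le_sup_of_le_right (le_inf ((res_le P).trans hPH) hle)) le_sup_left)
  refine ⟨𝐑(2, P), (res_le P).trans hPM, hTX, ?_, fun N hN => hc.four N (hsub hN), fun N hN => ?_, ⟨W, hWC⟩,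
    fun A hA B hB D hD => hc.two A (hsub hA) B (hsub hB) D (hsub hD),
    fun A hA B hB => hc.disj A (hsub hA) B (hsub hB), hperm, htr, hXn, hev, fun N hN => ?_, fun K h1 h2 => ?_,
    fun x hx => ?_, fun N hN => hc.Bn N (hsub hN), fun hle => ht2 (mem_cent_sSup.1 (hle htJ) W hWC)⟩
  · rw [hXT]; exact closure_odd_eq P
  · exact le_inf ((hNV N hN).trans hVT) ((hNV N hN).trans (hVV.trans (centralizer_anti hEV)))
  · have h4 := hc.four N (hsub hN)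
    obtain ⟨x, hx, hxf⟩ : ∃ x ∈ 𝐑(2, P), Fpf N x := by
      obtain ⟨x, hx, hxc⟩ := SetLike.not_le_iff_exists.1 hXE
      rw [mem_cent_sSup] at hxc
      push Not at hxc
      obtain ⟨N₁, hN₁, hxc⟩ := hxc
      obtain ⟨s, hs, rfl⟩ := htr N₁ hN₁ N hN
      exact ⟨_, conj_mem_of_mem_normalizer (hTX hs) hx, (hev N₁ hN₁ x hx hxc).cj s⟩
    obtain ⟨a, haJ, ha1, ha2⟩ : ∃ a ∈ 𝐉(T), ⁅V, zpowers a⁆ ≤ N ∧ a ∉ 𝐂(N) := by
      obtain ⟨s, hs, rfl⟩ := htr W hWC N hN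
      refine ⟨s * t * s⁻¹, conj_mem_of_mem_normalizer (le_norm_J T hs) htJ, ?_, ?_⟩
      · rw [← cj_zpowers, ← cj_eq_of_mem_normalizer (hMV (hT hs)), ← cj_commutator]
        exact cj_mono s ht1
      · rw [← cj_centralizer, cj_mem_iff]; exact ht2
    have haT : a ∈ T := J_le T haJ
    have hn : ∀ K ∈ C, a ∈ 𝐍(K) := fun K hK => hc.Bn K (hsub hK) (J_le_B T haJ)
    obtain ⟨z, hz⟩ := ((h4.tri (hn N hN)).resolve_left ha2).resolve_left fun e => e.not_two h4 sM.isP haT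
    have hy : x * a * x⁻¹ * a⁻¹ ∈ 𝐑(2, P) := by
      have := mul_mem hx (conj_mem_of_mem_normalizer (hTX haT) (inv_mem hx))
      simpa only [mul_assoc] using this
    refine ⟨_, hy, (hz.comm_fpf' h4 hxf).not_cent h4, fun K hK hKN => ?_⟩
    have hac : a ∈ 𝐂(K) := by
      have h5 : ⁅K, zpowers a⁆ = ⊥ := by
        rw [eq_bot_iff, ← hc.disj K (hsub hK) N (hsub hN) hKN]
        exact le_inf (commutator_le_left_of_le_normalizer (zpowers_le_of_mem (hn K hK)))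
          ((commutator_mono (hNV K hK) le_rfl).trans ha1)
      rw [commutator_comm] at h5
      exact le_centralizer_of_commutator_eq_bot h5 (mem_zpowers a)
    exact mul_mem (conj_mem_of_mem_normalizer (H69.normalizer_le_normalizer_centralizer K (hXn K hK hx)) hac)
      (inv_mem hac)
  · rw [hXT] at h2 ⊢
    by_cases hK : K ≤ T ⊔ (F ⊔ T) ⊓ 𝐂(sSup C)
    · right
      refine (le_inf hK h2).trans ?_
      rw [dedekind_right hTA hTP]
      exact sup_le_sup_left (le_inf inf_le_right (inf_le_left.trans inf_le_right)) T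
    · exact Or.inl (le_antisymm h2 (hmin ⟨h1, h2.trans hPH, hK⟩ h2))
  · have h1 := hXF hx.1
    rw [hF] at h1
    have h2 := commutator_zpowers_le_of_mem h1.2
    rw [hV] at h2 hZ
    exact centralizer_anti hZ (hc.kc C hsub x h1.1 h2 hx.2)

theorem QS.par0 (h : QS T) (hT : T ≤ M) (hO : 𝐎(M) ≠ ⊥) (hJ : ¬ 𝐉(T) ≤ 𝐂(𝐘(2, M))) :
    ∃ X C, X ≤ M ∧ Par0 T X C := by
  obtain ⟨C₀, hc⟩ := h.cmp hT hO
  have sM : IsSylowIn 2 T M := h.syl.mono hT le_top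
  obtain ⟨t, h1, -, W, hW, h2, h3⟩ := hc.tv _ le_rfl hJ
  obtain ⟨X, hX⟩ := PAR_main hc rfl sM (oz_sylow_le_Y (h.chr M hT hO) sM) hW h1 h2 h3 rfl
  exact ⟨X, _, hX⟩

end H16Q
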