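import Mathlib
import Cfsg.Agent.Base
import Cfsg.Agent.Lib.QZ.PAR
import Cfsg.Agent.Lib.QZ.P1
import Cfsg.Agent.Lib.QZ.P2
import Cfsg.Agent.Lib.QZ.U
import Cfsg.Agent.Lib.QZ.F4

/-!
Reduction to a pair of parabolics.
-/

set_option autoImplicit false
set_option linter.unusedSectionVars false
set_option linter.unusedVariables false

namespace H16Q

open Subgroup H69 H70 Cfsg
open scoped commutatorElement Pointwise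

variable {G : Type*} [Group G] [Finite G]

variable {T X X₁ X₂ H M R : Subgroup G} {C C₁ C₂ : Set (Subgroup G)}

private theorem red_O (hM : IsMaximalTwoLocal M) : 𝐎(M) ≠ ⊥ := by
  obtain ⟨⟨U, hU, h1, rfl⟩, -⟩ := hM
  exact fun e => h1 (le_bot_iff.1 (e ▸ H70.le_pCoreOf hU le_normalizer le_rfl))

private theorem red_max (hM : IsMaximalTwoLocal M) {U : Subgroup G} (hU : IsPGroup 2 U) (h1 : U ≠ ⊥)
    (hn : M ≤ 𝐍(U)) : 𝐍(U) = M :=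
  hM.2 _ ⟨U, hU, h1, rfl⟩ hn

private theorem red_nonff (h : QS T) (hT : T ≤ M) (hO : 𝐎(M) ≠ ⊥) (hJ : 𝐉(T) ≤ 𝐂(𝐘(2, M))) {m : G}
    (hm : m ∈ M) : ∃ c ∈ 𝐂(𝐙(T)), ∃ n ∈ 𝐍(𝐁(T)), m = c * n := by
  have syl : IsSylowIn 2 T M := h.syl.mono hT le_top
  have hn : M ≤ 𝐍(𝐘(2, M)) := le_normalizer_Y M
  have YT : 𝐘(2, M) ≤ T := (Y_le_pCoreOf M).trans syl.pCoreOf_le
  have YZ : 𝐘(2, M) ≤ 𝐙(𝐉(T)) := le_oz_J (Y_ea M) YT (le_centralizer_iff.1 hJ)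
  have BR : 𝐁(T) ≤ T ⊓ 𝐂(𝐘(2, M)) := le_inf (B_le T) ((B_le_cent T).trans (H69.centralizer_anti YZ))
  have JR : 𝐉(T ⊓ 𝐂(𝐘(2, M))) = 𝐉(T) := H24.thompsonSubgroupOf_eq_of_le ((J_le_B T).trans BR) inf_le_left
  have BB : 𝐁(T ⊓ 𝐂(𝐘(2, M))) = 𝐁(T) := by
    rw [B_def (T ⊓ 𝐂(𝐘(2, M))), JR]
    refine le_antisymm ?_ (le_inf BR (B_le_cent T))
    rw [B_def]
    exact inf_le_inf_right _ inf_le_left
  have hm' : m ∈ 𝐍(M ⊓ 𝐂(𝐘(2, M))) :=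
    H69.le_normalizer_inf le_normalizer (H69.le_normalizer_centralizer hn) hm
  obtain ⟨c, hc, n, hn', e⟩ := (syl.inf_centralizer hn).frattini hm'
  have ZY : 𝐙(T) ≤ 𝐘(2, M) := oz_sylow_le_Y (h.chr M hT hO) syl
  exact ⟨c, H69.centralizer_anti ZY hc.2, n, BB ▸ norm_le_norm_B _ hn', e⟩

private theorem red_ff (h : QS T) (hM : IsMaximalTwoLocal M) (hT : T ≤ M) (hJ : ¬ 𝐉(T) ≤ 𝐂(𝐘(2, M))) :
    ∃ X C, X ≤ M ∧ Par T X C ∧ (∀ g ∈ M, Pm C g) ∧ 𝐍(sSup C) = M := by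
  obtain ⟨X, C, hX, p0⟩ := h.par0 hT (red_O hM) hJ
  have p : Par T X C := (p0.par1 h).par h
  have hp : ∀ g ∈ M, Pm C g := p.u1 h (sup_le hX hT) (red_O hM)
  refine ⟨X, C, hX, p, hp, red_max hM ?_ p.ne_bot fun g hg => (hp g hg).norm_sSup⟩
  exact h.syl.isP.to_le (sSup_le fun N hN => (p.leQ N hN).trans inf_le_left)

private theorem red_mixed (h : QS T) {M₁ M₂ : Subgroup G} (h1 : M₁ ∈ maxTwoLocalsContaining 𝐂(𝐙(T)))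
    (h2 : M₂ ∈ maxTwoLocalsContaining 𝐂(𝐙(T))) (hJ1 : ¬ 𝐉(T) ≤ 𝐂(𝐘(2, M₁)))
    (hJ2 : 𝐉(T) ≤ 𝐂(𝐘(2, M₂))) : M₁ = M₂ := by
  obtain ⟨X, C, hX, p, hp, hN⟩ := red_ff h h1.1 ((le_cent_oz2 T).trans h1.2) hJ1
  refine h2.1.2 M₁ h1.1.1 fun m hm => ?_
  obtain ⟨c, hc, n, hn, rfl⟩ := red_nonff h ((le_cent_oz2 T).trans h2.2) (red_O h2.1) hJ2 hm
  refine mul_mem (h1.2 hc) ?_
  rw [← hN]
  exact (p.u2 h p.XB (B_le T) (le_normalizer.trans (norm_le_norm_B T)) n hn).norm_sSup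

theorem QS.pair (h : QS T) {M₁ M₂ : Subgroup G} (h1 : M₁ ∈ maxTwoLocalsContaining 𝐂(𝐙(T)))
    (h2 : M₂ ∈ maxTwoLocalsContaining 𝐂(𝐙(T))) (hne : M₁ ≠ M₂) : ∃ X₁ X₂ C₁ C₂, Pair T X₁ X₂ C₁ C₂ := by
  have T1 : T ≤ M₁ := (le_cent_oz2 T).trans h1.2
  have T2 : T ≤ M₂ := (le_cent_oz2 T).trans h2.2
  by_cases hJ1 : 𝐉(T) ≤ 𝐂(𝐘(2, M₁)) <;> by_cases hJ2 : 𝐉(T) ≤ 𝐂(𝐘(2, M₂))
  · exfalso
    have Tne : T ≠ ⊥ := fun e => red_O h1.1 (le_bot_iff.1 (e ▸ (h.syl.mono T1 le_top).pCoreOf_le))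
    have Zne : 𝐙(T) ≠ ⊥ := oz2_ne_bot h.syl.isP Tne
    have ZB : 𝐙(T) ≤ 𝐁(T) := by
      rw [B_def]
      exact le_inf (oz2_le T) ((oz2_le_cent T).trans (H69.centralizer_anti ((oz2_le _).trans (J_le T))))
    set W : Subgroup G := ⨅ c : 𝐂(𝐙(T)), 𝐁(T) ^ᶜ (c : G) with hW
    have ZW : 𝐙(T) ≤ W := le_iInf fun c =>
      (cj_eq_of_mem_centralizer c.2).ge.trans (cj_mono _ ZB)
    have WB : W ≤ 𝐁(T) := (iInf_le _ 1).trans (cj_one _).le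
    have WP : IsPGroup 2 W := h.syl.isP.to_le (WB.trans (B_le T))
    have Wne : W ≠ ⊥ := fun e => Zne (le_bot_iff.1 (e ▸ ZW))
    have key : ∀ M ∈ maxTwoLocalsContaining 𝐂(𝐙(T)), 𝐉(T) ≤ 𝐂(𝐘(2, M)) → 𝐍(W) = M := fun M hM hJ => by
      refine red_max hM.1 WP Wne fun m hm => mem_normalizer_of_cj_le (le_iInf fun c => ?_)
      obtain ⟨c', hc', n, hn, e⟩ := red_nonff h ((le_cent_oz2 T).trans hM.2) (red_O hM.1) hJ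
        (mul_mem (inv_mem hm) (hM.2 c.2))
      rw [cj_le_iff, cj_cj, e, ← cj_cj, cj_eq_of_mem_normalizer hn]
      exact iInf_le (fun c : 𝐂(𝐙(T)) => 𝐁(T) ^ᶜ (c : G)) ⟨c', hc'⟩
    exact hne ((key M₁ h1 hJ1).symm.trans (key M₂ h2 hJ2))
  · exact absurd (red_mixed h h2 h1 hJ2 hJ1).symm hne
  · exact absurd (red_mixed h h1 h2 hJ1 hJ2) hne
  · obtain ⟨X₁, C₁, hX1, p1, hp1, hN1⟩ := red_ff h h1.1 T1 hJ1
    obtain ⟨X₂, C₂, hX2, p2, hp2, hN2⟩ := red_ff h h2.1 T2 hJ2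
    refine ⟨X₁, X₂, C₁, C₂, h, p1, p2, fun U hU a1 a2 => ?_, fun c hc => hp1 c (h1.2 hc),
      fun c hc => hp2 c (h2.2 hc)⟩
    by_contra hU1
    have hO : 𝐎(𝐍(U)) ≠ ⊥ := fun e => hU1 (le_bot_iff.1 (e ▸ H70.le_pCoreOf hU le_normalizer le_rfl))
    have b1 : X₂ ⊔ T ≤ M₁ := fun g hg => by
      rw [← hN1]; exact (p1.u1 h a1 hO g (a2 hg)).norm_sSup
    have b2 : M₁ ≤ M₂ := fun g hg => by
      rw [← hN2]; exact (p2.u1 h b1 (red_O h1.1) g hg).norm_sSup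
    exact hne (h1.1.2 M₂ h2.1.1 b2).symm

end H16Q
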