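import Mathlib
import Cfsg.Agent.Base
import Cfsg.Agent.Lib.QZ.TW
import Cfsg.Agent.S3035

/-!
One component on each side.
-/

set_option autoImplicit false
set_option linter.unusedSectionVars false
set_option linter.unusedVariables false

namespace H16Q

open Subgroup H69 H70 Cfsg
open scoped commutatorElement Pointwise

variable {G : Type*} [Group G] [Finite G]

variable [IsSimpleGroup G] {T N N' M M' Y : Subgroup G} {z w : G}

theorem tr1_Y (hG : ¬ IsMulCommutative G) (h : Fin1 T N N' Y z) : Y = ⊥ := by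
  refine eq_bot_iff.2 fun c hc => mem_bot.2 (by_contra fun c1 => ?_)
  have two : ∀ y ∈ Y, y ≠ 1 → y = c := fun y hy y1 => by
    by_contra yc
    have := Fintype.ofFinite Y
    have : 2 < Nat.card Y := by
      rw [Nat.card_eq_fintype_card, Fintype.two_lt_card_iff]
      exact ⟨⟨y, hy⟩, ⟨c, hc⟩, 1, by simpa using yc, by simpa using y1, by simpa using c1⟩
    exact this.not_ge h.cardY
  have c2 : c * c = 1 := by_contra fun e => c1 (mul_eq_left.1 (two _ (mul_mem hc hc) e))
  have DT : N ⊔ N' ≤ T := h.T_eq ▸ le_sup_left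
  have cT : c ∈ T := h.T_eq ▸ mem_sup_right hc
  have dec : ∀ x ∈ T, x ∉ N ⊔ N' → ∃ d ∈ N ⊔ N', x = d * c := fun x hx hn => by
    rw [h.T_eq, ← SetLike.mem_coe, coe_mul_of_right_le_normalizer_left _ _
      (le_normalizer_of_le_centralizer (h.Yc.trans (centralizer_anti DT)))] at hx
    obtain ⟨d, hd, y, hy, rfl⟩ := hx
    exact ⟨d, hd, by rw [two y hy fun e => hn (by simpa [e] using hd)]⟩
  have l2 : Le2 (N ⊔ N') T := fun x hx y hy hx' hy' => by
    obtain ⟨d, hd, rfl⟩ := dec x hx hx'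
    obtain ⟨d', hd', rfl⟩ := dec y hy hy'
    rw [mul_assoc, h.Yc hc d' (DT hd'), ← mul_assoc c, c2, one_mul]
    exact mul_mem hd hd'
  obtain ⟨g, -, hg⟩ := tt2 hG h.syl l2 cT c2
  obtain ⟨r, hr, e⟩ := h.inv _ hg (by rw [conj_mul, c2, mul_one, mul_inv_cancel])
  obtain ⟨t, ht, e'⟩ := h.fus c (mem_sup_right hc) r (mem_sup_left hr)
    ((isConj_iff.2 ⟨g, rfl⟩).trans e)
  rw [h.Yc hc t ht, mul_inv_cancel_right] at e'
  exact c1 (mem_bot.1 (h.inf ▸ ⟨e' ▸ mem_sup_left (zpowers_le_of_mem h.d.z_mem.1 hr), hc⟩))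

theorem tr1_perm {n : ℕ} (hn : 2 < n) (e : G ≃* Equiv.Perm (Fin n)) : False := by
  have : Nontrivial (Fin n) := Fin.nontrivial_iff_two_le.2 hn.le
  have := e.symm.isSimpleGroup
  have i := alternatingGroup.index_eq_two (α := Fin n)
  rcases (inferInstance : (alternatingGroup (Fin n)).Normal).eq_bot_or_eq_top with k | k
  · rw [k, index_bot, Nat.card_eq_fintype_card, Fintype.card_perm, Fintype.card_fin] at i
    exact (hn.trans_le (Nat.self_le_factorial n)).ne' i
  · rw [k, index_top] at i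
    exact absurd i (by decide)

theorem tr1_cen {H : Type*} [Group H] (hG : ¬ IsMulCommutative G) (e : G ≃* H) : center H = ⊥ := by
  have := e.symm.isSimpleGroup
  refine (inferInstance : (center H).Normal).eq_bot_or_eq_top.resolve_right fun k =>
    hG ⟨⟨fun a b => e.injective ?_⟩⟩
  rw [map_mul, map_mul]
  exact mem_center_iff.1 (k ▸ mem_top (e b)) (e a)

theorem Fin1.main (hG : ¬ IsMulCommutative G) (h : Fin1 T N N' Y z) :
    (∃ (F : Type) (_ : Field F) (_ : Fintype F), Fintype.card F = 2 ∧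
        Nonempty (G ≃* Matrix.ProjectiveSpecialLinearGroup (Fin 3) F)) ∨
      Nonempty (G ≃* ↥(alternatingGroup (Fin 6))) := by
  have eT : T = N ⊔ N' := by rw [h.T_eq, tr1_Y hG h, sup_bot_eq]
  have z2 := h.d.f.sq h.d.z_mem.1
  have eZ : 𝐙(T) = zpowers z := by
    rw [eT]
    exact le_antisymm (fun x hx => h.d.cent (mem_oz2.1 hx).1 (mem_oz2.1 hx).2.1)
      (zpowers_le_of_mem (mem_oz2.2 ⟨mem_sup_left h.d.z_mem.1, h.d.zc, by rw [pow_two, z2]⟩))
  have eC : centralizer ({z} : Set G) = N ⊔ N' := by rw [← H69.centralizer_zpowers, ← eZ, h.ct, eT]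
  have oz : orderOf z = 2 := orderOf_eq_prime (by rw [pow_two, z2]) h.d.z1
  rcases Cfsg.Agent.S3035.result z oz (eC ▸ h.d.iso) with k | ⟨⟨e⟩⟩ | ⟨⟨e⟩⟩ | ⟨⟨e⟩⟩ | k
  · exfalso
    rcases (inferInstance : (oddCore G).Normal).eq_bot_or_eq_top with k' | k'
    · rw [k', sup_bot_eq] at k
      exact h.d.z1 (mem_bot.1 (tr1_cen hG (MulEquiv.refl G) ▸ mem_center_iff.2 fun g =>
        mem_centralizer_singleton_iff.1 (k ▸ mem_top g)))
    · have o := H1.odd_card_oddCore (G := G)
      rw [k', card_top] at o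
      exact o.not_two_dvd_nat (oz ▸ orderOf_dvd_natCard z)
  · exact (tr1_perm (by decide) e).elim
  · exact (tr1_perm (by decide) e).elim
  · exact .inl ⟨ZMod 2, inferInstance, inferInstance, ZMod.card 2, ⟨e.trans
      ((QuotientGroup.quotientMulEquivOfEq (tr1_cen hG e)).trans QuotientGroup.quotientBot).symm⟩⟩
  · exact .inr k

end H16Q
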